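/-
McLaughlin's theorem: assembling a finite family of complemented pieces into the decomposition of the
statement.
-/
import Mathlib

set_option autoImplicit false

namespace Cfsg.Agent.Lib.McL.Assemble

open Module

variable {p : ℕ} [Fact p.Prime] {V : Type*} [AddCommGroup V] [Module (ZMod p) V]

/-- The action on a piece. -/
def ResProp (K : Subgroup (V ≃ₗ[ZMod p] V)) (Y : Submodule (ZMod p) V) : Prop :=
  ∃ ρ : ↥K →* (↥Y ≃ₗ[ZMod p] ↥Y),
    (∀ (h : ↥K) (v : ↥Y), ((ρ h v : ↥Y) : V) = (h : V ≃ₗ[ZMod p] V) (v : V)) ∧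
    ((ρ.range : Set (↥Y ≃ₗ[ZMod p] ↥Y)) =
        {f : ↥Y ≃ₗ[ZMod p] ↥Y | LinearMap.det (f : ↥Y →ₗ[ZMod p] ↥Y) = 1} ∨
      ∃ B : LinearMap.BilinForm (ZMod p) ↥Y, B.IsAlt ∧ B.Nondegenerate ∧
        (ρ.range : Set (↥Y ≃ₗ[ZMod p] ↥Y)) = {f : ↥Y ≃ₗ[ZMod p] ↥Y | ∀ x y, B (f x) (f y) = B x y})

/-- The subgroup of elements preserving `U` (with their inverses). -/
def stabSub (U : Submodule (ZMod p) V) : Subgroup (V ≃ₗ[ZMod p] V) where
  carrier := {g | (∀ x ∈ U, g x ∈ U) ∧ (∀ x ∈ U, g⁻¹ x ∈ U)}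
  mul_mem' := by
    rintro a b ⟨a1, a2⟩ ⟨b1, b2⟩
    refine ⟨fun x hx => a1 _ (b1 _ hx), fun x hx => ?_⟩
    rw [mul_inv_rev]
    exact b2 _ (a2 _ hx)
  one_mem' := ⟨fun x hx => hx, fun x hx => by simpa using hx⟩
  inv_mem' := by
    rintro a ⟨a1, a2⟩
    exact ⟨a2, fun x hx => by simpa using a1 x hx⟩

/-- The subgroup of elements fixing `U` pointwise. -/
def fixSub (U : Submodule (ZMod p) V) : Subgroup (V ≃ₗ[ZMod p] V) where
  carrier := {g | ∀ x ∈ U, g x = x}
  mul_mem' := by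
    intro a b ha hb x hx
    show a (b x) = x
    rw [hb x hx, ha x hx]
  one_mem' := fun _ _ => rfl
  inv_mem' := by
    intro a ha x hx
    show a.symm x = x
    rw [LinearEquiv.symm_apply_eq, ha x hx]

theorem mem_fixSub {U : Submodule (ZMod p) V} {g : V ≃ₗ[ZMod p] V} :
    g ∈ fixSub U ↔ ∀ x ∈ U, g x = x := Iff.rfl

theorem fixSub_le_stabSub (U : Submodule (ZMod p) V) : fixSub U ≤ stabSub U := by
  intro g hg
  refine ⟨fun x hx => by rw [hg x hx]; exact hx, fun x hx => ?_⟩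
  rw [(fixSub U).inv_mem hg x hx]
  exact hx

theorem assemble {J : Type*} [Fintype J] [Nonempty J] {H : Subgroup (V ≃ₗ[ZMod p] V)}
    (Y Z : J → Submodule (ZMod p) V) (K : J → Subgroup (V ≃ₗ[ZMod p] V))
    (hc : ∀ j, IsCompl (Y j) (Z j))
    (hle : ∀ j, K j ≤ H) (hnorm : ∀ j, ∀ h ∈ H, ∀ k ∈ K j, h * k * h⁻¹ ∈ K j)
    (hsup : ⨆ j, K j = H)
    (hfix : ∀ j, ∀ k ∈ K j, ∀ z ∈ Z j, k z = z)
    (hinv : ∀ j, ∀ k ∈ K j, ∀ y ∈ Y j, k y ∈ Y j)
    (hYZ : ∀ j j', j ≠ j' → Y j ≤ Z j')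
    (hcomm : ∀ j j', j ≠ j' → ∀ a ∈ K j, ∀ b ∈ K j', a * b = b * a)
    (hres : ∀ j, ResProp (K j) (Y j)) :
    ∃ (n : ℕ) (W : Fin (n + 1) → Submodule (ZMod p) V) (K' : Fin n → Subgroup (V ≃ₗ[ZMod p] V)),
      1 ≤ n ∧ DirectSum.IsInternal W ∧
      (∀ h ∈ H, ∀ i, (W i).map (h : V →ₗ[ZMod p] V) = W i) ∧
      (∀ j, K' j ≤ H ∧ ((K' j).subgroupOf H).Normal) ∧ ⨆ j, K' j = H ∧
      (∀ j, K' j ⊓ (⨆ j' ∈ {j' : Fin n | j' ≠ j}, K' j') = ⊥) ∧
      (∀ j j', j ≠ j' → ∀ a ∈ K' j, ∀ b ∈ K' j', a * b = b * a) ∧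
      (∀ j, ∀ h ∈ K' j, ∀ i : Fin (n + 1), i ≠ j.succ → ∀ v ∈ W i, h v = v) ∧
      (∀ j, ResProp (K' j) (W j.succ)) := by
  classical
  let e : Fin (Fintype.card J) ≃ J := (Fintype.equivFin J).symm
  let W₀ : Submodule (ZMod p) V := ⨅ j, Z j
  let W : Fin (Fintype.card J + 1) → Submodule (ZMod p) V := Fin.cons W₀ (fun i => Y (e i))
  have hW0 : W 0 = W₀ := rfl
  have hWs : ∀ i, W (Fin.succ i) = Y (e i) := fun i => rfl
  -- projections
  let π : J → V →ₗ[ZMod p] V := fun j =>
    (Y j).subtype ∘ₗ Submodule.projectionOnto (Y j) (Z j) (hc j)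
  have hπY : ∀ j, ∀ y ∈ Y j, π j y = y := by
    intro j y hy
    have := Submodule.projectionOnto_apply_left (hc j) ⟨y, hy⟩
    simp only [π, LinearMap.comp_apply, Submodule.subtype_apply]
    rw [show y = ((⟨y, hy⟩ : Y j) : V) from rfl, this]
  have hπZ : ∀ j, ∀ z ∈ Z j, π j z = 0 := by
    intro j z hz
    have := Submodule.projectionOnto_apply_right (hc j) ⟨z, hz⟩
    simp only [π, LinearMap.comp_apply, Submodule.subtype_apply]
    rw [show z = ((⟨z, hz⟩ : Z j) : V) from rfl, this]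
    simp
  have hπmem : ∀ j x, π j x ∈ Y j := by
    intro j x
    simp [π]
  have hπker : ∀ j x, x - π j x ∈ Z j := by
    intro j x
    have h1 : x ∈ (Y j) ⊔ (Z j) := by rw [(hc j).sup_eq_top]; trivial
    obtain ⟨y, hy, z, hz, rfl⟩ := Submodule.mem_sup.1 h1
    rw [map_add, hπY j y hy, hπZ j z hz]
    simpa using hz
  have hinter : ∀ j, ∀ x, x ∈ Y j → x ∈ Z j → x = 0 := by
    intro j x h1 h2
    have := (hc j).disjoint
    rw [disjoint_iff, eq_bot_iff] at this
    exact this ⟨h1, h2⟩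
  -- every element of the sup of the `Y j` is the sum of its projections
  have hsum : ∀ x ∈ ⨆ j, Y j, x = ∑ j, π j x := by
    intro x hx
    induction hx using Submodule.iSup_induction' with
    | mem j y hy =>
      rw [Finset.sum_eq_single j]
      · exact (hπY j y hy).symm
      · intro b _ hb
        exact hπZ b y (hYZ j b hb.symm hy)
      · intro h; exact absurd (Finset.mem_univ j) h
    | zero => simp
    | add x y _ _ hx hy =>
      simp only [map_add, Finset.sum_add_distrib]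
      rw [← hx, ← hy]
  have hW₀ : ∀ x, x ∈ W₀ ↔ ∀ j, x ∈ Z j := by
    intro x
    simp [W₀, Submodule.mem_iInf]
  refine ⟨Fintype.card J, W, fun i => K (e i), Fintype.card_pos, ?_, ?_, ?_, ?_, ?_, ?_, ?_, ?_⟩
  · -- internal
    rw [DirectSum.isInternal_submodule_iff_iSupIndep_and_iSup_eq_top]
    constructor
    · rw [iSupIndep_def]
      intro i
      refine Fin.cases ?_ (fun i' => ?_) i
      · -- index zero
        rw [disjoint_iff, eq_bot_iff]
        rintro x ⟨hx1, hx2⟩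
        have hx1' : x ∈ W₀ := hx1
        have hle2 : (⨆ j, ⨆ (_ : j ≠ (0 : Fin (Fintype.card J + 1))), W j) ≤ ⨆ j, Y j := by
          refine iSup_le fun j => iSup_le fun hj => ?_
          obtain ⟨i', rfl⟩ := Fin.exists_succ_eq.2 hj
          rw [hWs]
          exact le_iSup Y (e i')
        have h3 := hsum x (hle2 hx2)
        rw [Finset.sum_eq_zero] at h3
        · exact h3
        · intro j _
          exact hπZ j x ((hW₀ x).1 hx1' j)
      · -- index succ
        have hle2 : (⨆ j, ⨆ (_ : j ≠ Fin.succ i'), W j) ≤ Z (e i') := by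
          refine iSup_le fun j => iSup_le fun hj => ?_
          refine Fin.cases ?_ (fun j' hj' => ?_) j hj
          · intro _
            rw [hW0]
            intro x hx
            exact (hW₀ x).1 hx _
          · rw [hWs]
            apply hYZ
            intro h
            apply hj'
            rw [e.injective h]
        rw [hWs]
        exact (hc (e i')).disjoint.mono_right hle2
    · rw [eq_top_iff]
      intro x _
      have h1 : x - ∑ j, π j x ∈ W₀ := by
        rw [hW₀]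
        intro j
        have h2 : x - ∑ j, π j x = (x - π j x) - ∑ b ∈ Finset.univ.erase j, π b x := by
          rw [← Finset.add_sum_erase _ _ (Finset.mem_univ j)]
          abel
        rw [h2]
        refine Submodule.sub_mem _ (hπker j x) (Submodule.sum_mem _ fun b hb => ?_)
        exact hYZ b j (Finset.ne_of_mem_erase hb) (hπmem b x)
      have h2 : x = (x - ∑ j, π j x) + ∑ j, π j x := by abel
      rw [h2]
      refine Submodule.add_mem _ (Submodule.mem_iSup_of_mem 0 h1) (Submodule.sum_mem _ fun b _ => ?_)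
      have h3 : π b x ∈ W (Fin.succ (e.symm b)) := by
        rw [hWs, e.apply_symm_apply]
        exact hπmem b x
      exact Submodule.mem_iSup_of_mem _ h3
  · -- invariance
    intro h hh i
    have hstab : h ∈ stabSub (W i) := by
      rw [← hsup] at hh
      refine (iSup_le fun j => ?_ : ⨆ j, K j ≤ stabSub (W i)) hh
      refine Fin.cases ?_ (fun i' => ?_) i
      · refine le_trans ?_ (fixSub_le_stabSub _)
        intro k hk x hx
        exact hfix j k hk x ((hW₀ x).1 hx j)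
      · rw [hWs]
        by_cases hj : e i' = j
        · subst hj
          intro k hk
          exact ⟨hinv _ k hk, hinv _ k⁻¹ ((K _).inv_mem hk)⟩
        · refine le_trans ?_ (fixSub_le_stabSub _)
          intro k hk x hx
          exact hfix j k hk x (hYZ _ j hj hx)
    apply le_antisymm
    · rintro _ ⟨x, hx, rfl⟩
      exact hstab.1 x hx
    · intro x hx
      refine ⟨h⁻¹ x, hstab.2 x hx, ?_⟩
      show h (h.symm x) = x
      simp
  · intro j
    refine ⟨hle _, ⟨fun n hn g => ?_⟩⟩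
    rw [Subgroup.mem_subgroupOf] at hn ⊢
    exact hnorm _ g.1 g.2 n.1 hn
  · rw [← hsup]
    exact e.iSup_comp (g := K)
  · intro j
    rw [eq_bot_iff]
    rintro x ⟨hx1, hx2⟩
    have hfixY : x ∈ fixSub (Y (e j)) := by
      have : (⨆ j' ∈ {j' : Fin (Fintype.card J) | j' ≠ j}, K (e j')) ≤ fixSub (Y (e j)) := by
        refine iSup_le fun j' => iSup_le fun hj' => ?_
        intro k hk y hy
        refine hfix _ k hk y (hYZ _ _ ?_ hy)
        intro h
        exact hj' (e.injective h).symm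
      exact this hx2
    rw [Subgroup.mem_bot]
    apply LinearEquiv.ext
    intro v
    have hv : v ∈ (Y (e j)) ⊔ (Z (e j)) := by rw [(hc _).sup_eq_top]; trivial
    obtain ⟨y, hy, z, hz, rfl⟩ := Submodule.mem_sup.1 hv
    rw [map_add, hfixY y hy, hfix _ x hx1 z hz]
    rfl
  · intro j j' hjj' a ha b hb
    exact hcomm _ _ (fun h => hjj' (e.injective h)) a ha b hb
  · intro j h hh i hi v hv
    refine Fin.cases (fun _ hv => ?_) (fun i' hi' hv => ?_) i hi hv
    · exact hfix _ h hh v ((hW₀ v).1 hv _)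
    · rw [hWs] at hv
      refine hfix _ h hh v (hYZ _ _ ?_ hv)
      intro h'
      apply hi'
      rw [e.injective h']
  · intro j
    rw [hWs]
    exact hres _

end Cfsg.Agent.Lib.McL.Assemble
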