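/-
McLaughlin's theorem, basic layer: pairs `(a,b)` with the transvection `x ↦ x + b x • a` in a subgroup `H`
of `GL(V)`, `V` over `ZMod p`.  The spaces `BB H a` of forms, their annihilators `UU H a`, the commutator rule,
and the "equal dimension" lemmas.
-/
import Mathlib

set_option autoImplicit false

namespace Cfsg.Agent.Lib.McL.Core

open Module

variable {p : ℕ} [Fact p.Prime] {V : Type*} [AddCommGroup V] [Module (ZMod p) V]

/-- `(a,b)` is a pair of `H`: `b a = 0` and the transvection `x ↦ x + b x • a` lies in `H`. -/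
def Lp (H : Subgroup (V ≃ₗ[ZMod p] V)) (a : V) (b : Dual (ZMod p) V) : Prop :=
  ∃ h : b a = 0, LinearEquiv.transvection h ∈ H

variable {H : Subgroup (V ≃ₗ[ZMod p] V)} {a a' : V} {b b' : Dual (ZMod p) V}

theorem Lp.apply_eq (h : Lp H a b) : b a = 0 := h.1

theorem Lp.mem (h : Lp H a b) : LinearEquiv.transvection h.1 ∈ H := h.2

theorem tv_apply (h : b a = 0) (x : V) : LinearEquiv.transvection h x = x + b x • a := rfl

theorem tv_ext {c c' : V} {d d' : Dual (ZMod p) V} (h : d c = 0) (h' : d' c' = 0)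
    (he : ∀ x, d x • c = d' x • c') : LinearEquiv.transvection h = LinearEquiv.transvection h' := by
  apply LinearEquiv.ext
  intro x
  simp only [tv_apply, he]

theorem Lp.congr {a₂ : V} {b₂ : Dual (ZMod p) V} (h : Lp H a b)
    (he : ∀ x, b x • a = b₂ x • a₂) (h0 : b₂ a₂ = 0) : Lp H a₂ b₂ := by
  refine ⟨h0, ?_⟩
  have := tv_ext h.1 h0 he
  rw [← this]
  exact h.2

theorem Lp_zero_right (a : V) : Lp H a 0 := by
  refine ⟨by simp, ?_⟩
  have : LinearEquiv.transvection (f := (0 : Dual (ZMod p) V)) (v := a) (by simp) = 1 := by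
    apply LinearEquiv.ext; intro x; simp [tv_apply]
  rw [this]; exact H.one_mem

theorem Lp_zero_left (b : Dual (ZMod p) V) : Lp H 0 b := by
  refine ⟨by simp, ?_⟩
  have : LinearEquiv.transvection (f := b) (v := (0 : V)) (by simp) = 1 := by
    apply LinearEquiv.ext; intro x; simp [tv_apply]
  rw [this]; exact H.one_mem

theorem Lp.add_right (h : Lp H a b) (h' : Lp H a b') : Lp H a (b + b') := by
  refine ⟨by simp [h.1, h'.1], ?_⟩
  have : LinearEquiv.transvection (f := b + b') (v := a) (by simp [h.1, h'.1]) =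
      LinearEquiv.transvection h.1 * LinearEquiv.transvection h'.1 := by
    apply LinearEquiv.ext; intro x
    simp only [LinearEquiv.mul_apply, tv_apply, map_add, map_smul, h.1, smul_eq_mul, mul_zero,
      add_zero, LinearMap.add_apply, add_smul, zero_smul]
    abel
  rw [this]; exact H.mul_mem h.2 h'.2

theorem Lp.add_left {a₂ : V} (h : Lp H a b) (h' : Lp H a₂ b) : Lp H (a + a₂) b := by
  refine ⟨by simp [h.1, h'.1], ?_⟩
  have : LinearEquiv.transvection (f := b) (v := a + a₂) (by simp [h.1, h'.1]) =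
      LinearEquiv.transvection h.1 * LinearEquiv.transvection h'.1 := by
    apply LinearEquiv.ext; intro x
    simp only [LinearEquiv.mul_apply, tv_apply, map_add, map_smul, h'.1, smul_eq_mul, mul_zero,
      add_zero, smul_add, zero_smul]
    abel
  rw [this]; exact H.mul_mem h.2 h'.2

theorem Lp.nsmul_right (h : Lp H a b) (n : ℕ) : Lp H a (n • b) := by
  induction n with
  | zero => simpa using Lp_zero_right a
  | succ n ih => rw [succ_nsmul]; exact ih.add_right h

theorem Lp.smul_right (h : Lp H a b) (c : ZMod p) : Lp H a (c • b) := by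
  have := h.nsmul_right c.val
  have he : c • b = c.val • b := by
    rw [← Nat.cast_smul_eq_nsmul (ZMod p), ZMod.natCast_zmod_val]
  rw [he]; exact this

theorem Lp.smul_left (h : Lp H a b) (c : ZMod p) : Lp H (c • a) b := by
  refine (h.smul_right c).congr ?_ (by simp [h.1])
  intro x
  simp [smul_smul, mul_comm]

theorem Lp.neg_right (h : Lp H a b) : Lp H a (-b) := by
  have he : -b = (-1 : ZMod p) • b := by ext x; simp
  rw [he]; exact h.smul_right (-1)

theorem Lp.neg_left (h : Lp H a b) : Lp H (-a) b := by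
  have := h.smul_left (-1)
  rwa [neg_smul, one_smul] at this

theorem Lp.sub_right (h : Lp H a b) (h' : Lp H a b') : Lp H a (b - b') := by
  rw [sub_eq_add_neg]; exact h.add_right h'.neg_right

theorem Lp.sub_left {a₂ : V} (h : Lp H a b) (h' : Lp H a₂ b) : Lp H (a - a₂) b := by
  rw [sub_eq_add_neg]; exact h.add_left h'.neg_left

/-- Conjugation by an element of `H`. -/
theorem Lp.conj {g : V ≃ₗ[ZMod p] V} (hg : g ∈ H) (h : Lp H a b) :
    Lp H (g a) (b ∘ₗ (g.symm : V →ₗ[ZMod p] V)) := by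
  refine ⟨by simp [h.1], ?_⟩
  have : LinearEquiv.transvection (f := b ∘ₗ (g.symm : V →ₗ[ZMod p] V)) (v := g a) (by simp [h.1]) =
      g * LinearEquiv.transvection h.1 * g⁻¹ := by
    apply LinearEquiv.ext; intro x
    show x + b (g.symm x) • g a = g (g.symm x + b (g.symm x) • a)
    simp
  rw [this]; exact H.mul_mem (H.mul_mem hg h.2) (H.inv_mem hg)

/-- Conjugation formula by another transvection of `H`. -/
theorem Lp.conj_tv (h' : Lp H a' b') (h : Lp H a b) :
    Lp H (a + b' a • a') (b - b a' • b') := by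
  have := Lp.conj h'.2 h
  refine this.congr ?_ ?_
  · intro x
    have h1 : (LinearEquiv.transvection h'.1).symm x = x - b' x • a' := by
      rw [LinearEquiv.symm_apply_eq, tv_apply]
      simp [h'.1]
    have h2 : (b ∘ₗ ((LinearEquiv.transvection h'.1).symm : V →ₗ[ZMod p] V)) x =
        b x - b a' * b' x := by
      simp only [LinearMap.comp_apply, LinearEquiv.coe_coe, h1, map_sub, map_smul, smul_eq_mul]
      ring
    rw [h2, tv_apply]
    simp [mul_comm]
  · simp only [map_add, map_smul, LinearMap.sub_apply, smul_eq_mul, LinearMap.smul_apply,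
      h.1, h'.1]
    ring

/-- The commutator rule. -/
theorem Lp.rule (h : Lp H a b) (h' : Lp H a' b') (h1 : b a' ≠ 0) (h2 : b' a = 0) : Lp H a b' := by
  have h3 := h'.conj_tv h
  rw [h2, zero_smul, add_zero] at h3
  have h4 := h.sub_right h3
  rw [sub_sub_cancel] at h4
  have h5 := h4.smul_right (b a')⁻¹
  rwa [smul_smul, inv_mul_cancel₀ h1, one_smul] at h5

/-- The forms of pairs with first component `a`. -/
def BB (H : Subgroup (V ≃ₗ[ZMod p] V)) (a : V) : Submodule (ZMod p) (Dual (ZMod p) V) where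
  carrier := {b | Lp H a b}
  add_mem' := fun h h' => Lp.add_right h h'
  zero_mem' := Lp_zero_right a
  smul_mem' := fun c _ h => Lp.smul_right h c

@[simp] theorem mem_BB : b ∈ BB H a ↔ Lp H a b := Iff.rfl

/-- The annihilator of `BB H a`. -/
def UU (H : Subgroup (V ≃ₗ[ZMod p] V)) (a : V) : Submodule (ZMod p) V :=
  (BB H a).dualCoannihilator

theorem mem_UU {x : V} : x ∈ UU H a ↔ ∀ b, Lp H a b → b x = 0 := by
  simp [UU, Submodule.mem_dualCoannihilator]

theorem self_mem_UU : a ∈ UU H a := mem_UU.2 fun _ h => h.1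

theorem not_mem_UU {x : V} : x ∉ UU H a ↔ ∃ b, Lp H a b ∧ b x ≠ 0 := by
  rw [mem_UU]; push Not; rfl

section FD

variable [Module.Finite (ZMod p) V]

theorem mem_BB_iff : Lp H a b ↔ ∀ x ∈ UU H a, b x = 0 := by
  have h : (BB H a).dualCoannihilator.dualAnnihilator = BB H a :=
    Subspace.dualCoannihilator_dualAnnihilator_eq
  rw [← mem_BB, ← h, Submodule.mem_dualAnnihilator]
  rfl

theorem BB_eq_of_UU_eq {a₂ : V} (h : UU H a = UU H a₂) : BB H a = BB H a₂ := by
  ext c
  rw [mem_BB, mem_BB, mem_BB_iff, mem_BB_iff, h]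

/-- Lemma A: two points of equal dimension, `a' ∉ UU a` forces `a ∉ UU a'`. -/
theorem not_mem_UU_symm (hd : Module.finrank (ZMod p) (BB H a') = Module.finrank (ZMod p) (BB H a))
    (h : a' ∉ UU H a) : a ∉ UU H a' := by
  intro ha
  obtain ⟨c, hc, hca⟩ := not_mem_UU.1 h
  have hle : BB H a' ≤ BB H a := by
    intro d hd'
    exact Lp.rule hc hd' hca (mem_UU.1 ha d hd')
  have heq : BB H a' = BB H a := Submodule.eq_of_le_of_finrank_eq hle hd
  have hc' : Lp H a' c := by
    have : c ∈ BB H a' := by rw [heq]; exact hc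
    exact this
  exact hca hc'.1

/-- Decomposition. -/
theorem exists_sub_smul_mem (h : a' ∉ UU H a) (h' : a ∉ UU H a') {z : V} (hz : z ∈ UU H a') :
    ∃ μ : ZMod p, z - μ • a' ∈ UU H a := by
  obtain ⟨c, hc, hca⟩ := not_mem_UU.1 h
  obtain ⟨c', hc', hca'⟩ := not_mem_UU.1 h'
  refine ⟨(c a')⁻¹ * c z, mem_UU.2 fun d hd => ?_⟩
  -- the form `d - (d a'/c a') c` lies in `BB a'`
  have h1 : Lp H a (d - (d a' * (c a')⁻¹) • c) := hd.sub_right (hc.smul_right _)
  have h2 : (d - (d a' * (c a')⁻¹) • c) a' = 0 := by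
    simp only [LinearMap.sub_apply, LinearMap.smul_apply, smul_eq_mul]
    field_simp
    ring
  have h3 : Lp H a' (d - (d a' * (c a')⁻¹) • c) := Lp.rule hc' h1 hca' h2
  have h4 := mem_UU.1 hz _ h3
  simp only [LinearMap.sub_apply, LinearMap.smul_apply, smul_eq_mul] at h4
  simp only [map_sub, map_smul, smul_eq_mul]
  linear_combination h4

/-- The main lemma. -/
theorem mem_UU_of_main {w w' x : V} {c : Dual (ZMod p) V}
    (hw : Module.finrank (ZMod p) (BB H w) = Module.finrank (ZMod p) (BB H a))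
    (hw' : Module.finrank (ZMod p) (BB H w') = Module.finrank (ZMod p) (BB H a))
    (hwa : w ∉ UU H a) (hwa' : w' ∉ UU H a) (hc : Lp H a c) (hcw : c w = 0) (hcw' : c w' ≠ 0)
    (hx : x ∈ UU H a) (hx' : x ∈ UU H w) : x ∈ UU H w' := by
  have haw : a ∉ UU H w := not_mem_UU_symm hw hwa
  have haw' : a ∉ UU H w' := not_mem_UU_symm hw' hwa'
  -- `c ∈ BB w`
  obtain ⟨bw, hbw, hbwa⟩ := not_mem_UU.1 haw
  have hcW : Lp H w c := Lp.rule hbw hc hbwa hcw
  have hw'w : w' ∉ UU H w := not_mem_UU.2 ⟨c, hcW, hcw'⟩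
  have hww' : w ∉ UU H w' := not_mem_UU_symm (hw'.trans hw.symm) hw'w
  -- claim
  have claim : ∃ b₁, Lp H w' b₁ ∧ b₁ w = 0 ∧ b₁ a ≠ 0 := by
    by_contra hcon
    push Not at hcon
    obtain ⟨e, he, hew⟩ := not_mem_UU.1 hww'
    -- `a - ν w ∈ UU w'`
    have hν : a - ((e w)⁻¹ * e a) • w ∈ UU H w' := by
      refine mem_UU.2 fun d hd => ?_
      have h1 : Lp H w' (d - (d w * (e w)⁻¹) • e) := hd.sub_right (he.smul_right _)
      have h2 : (d - (d w * (e w)⁻¹) • e) w = 0 := by
        simp only [LinearMap.sub_apply, LinearMap.smul_apply, smul_eq_mul]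
        field_simp
        ring
      have h3 := hcon _ h1 h2
      simp only [LinearMap.sub_apply, LinearMap.smul_apply, smul_eq_mul] at h3
      simp only [map_sub, map_smul, smul_eq_mul]
      linear_combination h3
    obtain ⟨μ, hμ⟩ := exists_sub_smul_mem hwa' haw' hν
    -- apply `c`
    have h1 := mem_UU.1 hμ c hc
    simp only [map_sub, map_smul, smul_eq_mul, hc.1, hcw, mul_zero, sub_zero, zero_sub] at h1
    have hμ0 : μ = 0 := by
      have : μ * c w' = 0 := by simpa using h1
      exact (mul_eq_zero.1 this).resolve_right hcw'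
    -- then `a - ν w ∈ UU a`, so `ν = 0`
    rw [hμ0, zero_smul, sub_zero] at hμ
    have hνm : ((e w)⁻¹ * e a) • w ∈ UU H a := by
      have := Submodule.sub_mem _ (self_mem_UU (H := H) (a := a)) hμ
      simpa using this
    by_cases hν0 : (e w)⁻¹ * e a = 0
    · rw [hν0, zero_smul, sub_zero] at hν
      exact haw' hν
    · have : w ∈ UU H a := by
        have := Submodule.smul_mem _ ((e w)⁻¹ * e a)⁻¹ hνm
        rwa [smul_smul, inv_mul_cancel₀ hν0, one_smul] at this
      exact hwa this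
  obtain ⟨b₁, hb₁, hb₁w, hb₁a⟩ := claim
  refine mem_UU.2 fun d hd => ?_
  have h1 : Lp H w' (d - (d a * (b₁ a)⁻¹) • b₁) := hd.sub_right (hb₁.smul_right _)
  have h2 : (d - (d a * (b₁ a)⁻¹) • b₁) a = 0 := by
    simp only [LinearMap.sub_apply, LinearMap.smul_apply, smul_eq_mul]
    field_simp
    ring
  have h3 : Lp H a (d - (d a * (b₁ a)⁻¹) • b₁) := Lp.rule hc h1 hcw' h2
  have h4 := mem_UU.1 hx _ h3
  have h5 : Lp H w b₁ := Lp.rule hcW hb₁ hcw' hb₁w
  have h6 := mem_UU.1 hx' _ h5
  simp only [LinearMap.sub_apply, LinearMap.smul_apply, smul_eq_mul, h6, mul_zero, sub_zero] at h4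
  exact h4

end FD

/-- Equivariance of `BB` (inclusion). -/
theorem Lp.comp_symm {g : V ≃ₗ[ZMod p] V} (hg : g ∈ H) (h : Lp H a b) :
    Lp H (g a) (b ∘ₗ (g.symm : V →ₗ[ZMod p] V)) := Lp.conj hg h

theorem Lp.of_conj {g : V ≃ₗ[ZMod p] V} (hg : g ∈ H) (h : Lp H (g a) b) :
    Lp H a (b ∘ₗ (g : V →ₗ[ZMod p] V)) := by
  have := Lp.conj (H.inv_mem hg) h
  have h1 : (g⁻¹ : V ≃ₗ[ZMod p] V) (g a) = a := by
    show g.symm (g a) = a
    simp
  rw [h1] at this
  exact this

theorem mem_UU_map {g : V ≃ₗ[ZMod p] V} (hg : g ∈ H) {x : V} :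
    g x ∈ UU H (g a) ↔ x ∈ UU H a := by
  constructor
  · intro h
    refine mem_UU.2 fun d hd => ?_
    have := mem_UU.1 h _ (Lp.conj hg hd)
    simpa using this
  · intro h
    refine mem_UU.2 fun d hd => ?_
    have := mem_UU.1 h _ (Lp.of_conj hg hd)
    simpa using this

/-- `finrank BB` is an invariant of `H`. -/
theorem finrank_BB_map {g : V ≃ₗ[ZMod p] V} (hg : g ∈ H) :
    Module.finrank (ZMod p) (BB H (g a)) = Module.finrank (ZMod p) (BB H a) := by
  have h : (BB H (g a)).map (g.dualMap : Dual (ZMod p) V ≃ₗ[ZMod p] Dual (ZMod p) V).toLinearMap =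
      BB H a := by
    ext d
    simp only [Submodule.mem_map, mem_BB]
    constructor
    · rintro ⟨e, he, rfl⟩
      exact Lp.of_conj hg he
    · intro hd
      refine ⟨d ∘ₗ (g.symm : V →ₗ[ZMod p] V), Lp.conj hg hd, ?_⟩
      ext x
      simp
  rw [← h]
  exact (LinearEquiv.finrank_map_eq g.dualMap (BB H (g a))).symm

/-- Left scalars do not change the forms. -/
theorem BB_smul {c : ZMod p} (hc : c ≠ 0) : BB H (c • a) = BB H a := by
  ext d
  simp only [mem_BB]
  constructor
  · intro h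
    have := h.smul_left c⁻¹
    rwa [smul_smul, inv_mul_cancel₀ hc, one_smul] at this
  · intro h
    exact h.smul_left c

theorem UU_smul {c : ZMod p} (hc : c ≠ 0) : UU H (c • a) = UU H a := by
  rw [UU, UU, BB_smul hc]

end Cfsg.Agent.Lib.McL.Core
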