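/-
McLaughlin's theorem: the consequence of `O_p = 1` that is used (`FlagFree`), and the connectivity hypothesis.
-/
import Mathlib
import Cfsg.Prelude.Def_Solvable
import Cfsg.Agent.Lib.McL.Core

set_option autoImplicit false

namespace Cfsg.Agent.Lib.McL.Flag

open Module Cfsg.Agent.Lib.McL.Core

variable {p : ℕ} [Fact p.Prime] {V : Type*} [AddCommGroup V] [Module (ZMod p) V]

/-- No nontrivial element of `H` acts trivially on the three steps of an invariant flag. -/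
def FlagFree (H : Subgroup (V ≃ₗ[ZMod p] V)) : Prop :=
  ∀ A B : Submodule (ZMod p) V, A ≤ B → (∀ h ∈ H, ∀ x ∈ A, h x ∈ A) → (∀ h ∈ H, ∀ x ∈ B, h x ∈ B) →
    ∀ g ∈ H, (∀ v, g v - v ∈ B) → (∀ v ∈ B, g v - v ∈ A) → (∀ v ∈ A, g v = v) → g = 1

/-- Connectedness of the non-commuting graph on the pairs of `H`. -/
def Conn (H : Subgroup (V ≃ₗ[ZMod p] V)) : Prop :=
  ∀ P : V → Dual (ZMod p) V → Prop, (∀ a b, P a b → a ≠ 0 ∧ b ≠ 0 ∧ Lp H a b) → (∃ a b, P a b) →
    (∀ a b a' b', P a b → a' ≠ 0 → b' ≠ 0 → Lp H a' b' → ¬ P a' b' → b a' = 0 ∧ b' a = 0) →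
    ∀ a b, a ≠ 0 → b ≠ 0 → Lp H a b → P a b

/-- The common structural conclusion for a connected group. -/
structure Struct (H : Subgroup (V ≃ₗ[ZMod p] V)) (Y Z : Submodule (ZMod p) V) : Prop where
  compl : IsCompl Y Z
  pair : ∀ a b, a ≠ 0 → b ≠ 0 → Lp H a b → a ∈ Y ∧ ∀ z ∈ Z, b z = 0
  cen : ∀ y ∈ Y, y ≠ 0 → ∃ b, b ≠ 0 ∧ Lp H y b
  ax : ∀ z, (∀ a b, a ≠ 0 → b ≠ 0 → Lp H a b → b z = 0) → z ∈ Z

variable {H : Subgroup (V ≃ₗ[ZMod p] V)}

theorem FlagFree.two (hF : FlagFree H) (A : Submodule (ZMod p) V)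
    (hA : ∀ h ∈ H, ∀ x ∈ A, h x ∈ A) {g : V ≃ₗ[ZMod p] V} (hg : g ∈ H)
    (h1 : ∀ v, g v - v ∈ A) (h2 : ∀ v ∈ A, g v = v) : g = 1 :=
  hF A A le_rfl hA hA g hg h1 (fun v _ => h1 v) h2

/-- The flag subgroup. -/
def flagSub (H : Subgroup (V ≃ₗ[ZMod p] V)) (A B : Submodule (ZMod p) V) (hAB : A ≤ B)
    (hB : ∀ h ∈ H, ∀ x ∈ B, h x ∈ B) :
    Subgroup (V ≃ₗ[ZMod p] V) where
  carrier := {g | g ∈ H ∧ (∀ v, g v - v ∈ B) ∧ (∀ v ∈ B, g v - v ∈ A) ∧ (∀ v ∈ A, g v = v)}
  mul_mem' := by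
    rintro g k ⟨hg, g1, g2, g3⟩ ⟨hk, k1, k2, k3⟩
    refine ⟨H.mul_mem hg hk, fun v => ?_, fun v hv => ?_, fun v hv => ?_⟩
    · have : (g * k) v - v = (g (k v) - k v) + (k v - v) := by
        simp [LinearEquiv.mul_apply]
      rw [this]
      exact B.add_mem (g1 _) (k1 _)
    · have : (g * k) v - v = (g (k v) - k v) + (k v - v) := by
        simp [LinearEquiv.mul_apply]
      rw [this]
      have hkv : k v ∈ B := by
        have := B.add_mem (hAB (k2 v hv)) hv
        simpa using this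
      exact A.add_mem (g2 _ hkv) (k2 v hv)
    · show g (k v) = v
      rw [k3 v hv, g3 v hv]
  one_mem' := by
    refine ⟨H.one_mem, fun v => ?_, fun v _ => ?_, fun v _ => rfl⟩
    · simp
    · simp
  inv_mem' := by
    rintro g ⟨hg, g1, g2, g3⟩
    have hsymm : ∀ v, g⁻¹ v = g.symm v := fun _ => rfl
    refine ⟨H.inv_mem hg, fun v => ?_, fun v hv => ?_, fun v hv => ?_⟩
    · have := g1 (g.symm v)
      rw [LinearEquiv.apply_symm_apply] at this
      rw [hsymm, ← neg_sub]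
      exact B.neg_mem this
    · have hw := hB _ (H.inv_mem hg) v hv
      rw [hsymm] at hw
      have := g2 (g.symm v) hw
      rw [LinearEquiv.apply_symm_apply] at this
      rw [hsymm, ← neg_sub]
      exact A.neg_mem this
    · rw [hsymm, LinearEquiv.symm_apply_eq, g3 v hv]

/-- `(h - 1)^3 = 0` forces `h ^ p = 1` for odd `p`. -/
theorem pow_eq_one_of_flag (hp : Odd p) {A B : Submodule (ZMod p) V} {g : V ≃ₗ[ZMod p] V}
    (g1 : ∀ v, g v - v ∈ B) (g2 : ∀ v ∈ B, g v - v ∈ A) (g3 : ∀ v ∈ A, g v = v) : g ^ p = 1 := by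
  -- `N v = g v - v`
  have key : ∀ (n : ℕ) (v : V), (g ^ n) v =
      v + n • (g v - v) + (n.choose 2) • (g (g v - v) - (g v - v)) := by
    intro n
    induction n with
    | zero => intro v; simp
    | succ n ih =>
      intro v
      have hN3 : g (g (g v - v) - (g v - v)) = g (g v - v) - (g v - v) :=
        g3 _ (g2 _ (g1 v))
      rw [pow_succ', LinearEquiv.mul_apply, ih v]
      simp only [map_add, map_nsmul]
      rw [hN3]
      have hc : (n + 1).choose 2 = n + n.choose 2 := by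
        rw [Nat.choose_succ_succ' n 1, Nat.choose_one_right]
      rw [hc, add_nsmul, succ_nsmul]
      have hh : g v = v + (g v - v) := by abel
      have hh2 : g (g v - v) = (g v - v) + (g (g v - v) - (g v - v)) := by abel
      generalize (g (g v - v) - (g v - v)) = M at hh2 ⊢
      rw [hh2]
      generalize g v - v = N at hh hh2 ⊢
      rw [hh]
      simp only [nsmul_add, add_nsmul]
      abel
  have hpp : p.Prime := Fact.out
  apply LinearEquiv.ext
  intro v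
  rw [key p v]
  have hd : p ∣ p.choose 2 := by
    apply hpp.dvd_choose_self (by norm_num)
    have := hpp.two_le
    rcases hp with ⟨k, rfl⟩
    omega
  obtain ⟨m, hm⟩ := hd
  have h0 : ∀ x : V, p • x = 0 := fun x => by
    rw [← Nat.cast_smul_eq_nsmul (ZMod p)]
    simp
  rw [hm, mul_nsmul', h0, h0]
  simp

/-- `H` has no nontrivial normal subgroup of exponent `p`, with `P` viewed in `GL(V)`. -/
def NoNormalP (H : Subgroup (V ≃ₗ[ZMod p] V)) : Prop :=
  ∀ P : Subgroup (V ≃ₗ[ZMod p] V), P ≤ H → (∀ g ∈ H, ∀ x ∈ P, g * x * g⁻¹ ∈ P) →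
    (∀ x ∈ P, x ^ p = 1) → P = ⊥

theorem flagFree_of (hp : Odd p) (h : NoNormalP H) : FlagFree H := by
  intro A B hAB hA hB g hg g1 g2 g3
  have hP := h (flagSub H A B hAB hB) (fun x hx => hx.1) ?_ ?_
  · have : g ∈ flagSub H A B hAB hB := ⟨hg, g1, g2, g3⟩
    rw [hP] at this
    exact this
  · rintro k hk x ⟨hx, x1, x2, x3⟩
    have hsymm : ∀ v, k⁻¹ v = k.symm v := fun _ => rfl
    have hform : ∀ v, (k * x * k⁻¹) v - v = k (x (k.symm v) - k.symm v) := by
      intro v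
      simp only [LinearEquiv.mul_apply, hsymm, map_sub, LinearEquiv.apply_symm_apply]
    refine ⟨H.mul_mem (H.mul_mem hk hx) (H.inv_mem hk), fun v => ?_, fun v hv => ?_, fun v hv => ?_⟩
    · rw [hform]
      exact hB k hk _ (x1 _)
    · rw [hform]
      have hw : k.symm v ∈ B := hB _ (H.inv_mem hk) v hv
      exact hA k hk _ (x2 _ hw)
    · have hw : k.symm v ∈ A := hA _ (H.inv_mem hk) v hv
      simp only [LinearEquiv.mul_apply, hsymm]
      rw [x3 _ hw, LinearEquiv.apply_symm_apply]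
  · rintro x ⟨_, x1, x2, x3⟩
    exact pow_eq_one_of_flag hp x1 x2 x3

theorem noNormalP_of_pCore (h : Cfsg.pCore p ↥H = ⊥) : NoNormalP H := by
  intro P hPH hn hexp
  have hN : (P.subgroupOf H).Normal := by
    refine ⟨fun n hn' g => ?_⟩
    rw [Subgroup.mem_subgroupOf] at hn' ⊢
    exact hn g.1 g.2 n.1 hn'
  have hpg : IsPGroup p (P.subgroupOf H) := by
    intro x
    refine ⟨1, ?_⟩
    apply Subtype.ext
    apply Subtype.ext
    have : ((x : ↥H) : V ≃ₗ[ZMod p] V) ∈ P := x.2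
    simpa using hexp _ this
  have hle : P.subgroupOf H ≤ Cfsg.pCore p ↥H := le_sSup ⟨hN, hpg⟩
  rw [h] at hle
  rw [eq_bot_iff]
  intro x hx
  have hx' : (⟨x, hPH hx⟩ : ↥H) ∈ P.subgroupOf H := hx
  have := hle hx'
  rw [Subgroup.mem_bot] at this ⊢
  exact congrArg Subtype.val this

end Cfsg.Agent.Lib.McL.Flag
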