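/-
McLaughlin's theorem, the case where every point has a single form up to scalars: construction of the
linear map `y ↦ Φ y` on a subspace.
-/
import Mathlib
import Cfsg.Agent.Lib.McL.Flag

set_option autoImplicit false

namespace Cfsg.Agent.Lib.McL.Form

open Module Cfsg.Agent.Lib.McL.Core Cfsg.Agent.Lib.McL.Flag

variable {p : ℕ} [Fact p.Prime] {V : Type*} [AddCommGroup V] [Module (ZMod p) V]
  {H : Subgroup (V ≃ₗ[ZMod p] V)} {a₀ : V} {f₀ : Dual (ZMod p) V}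

/-- The base data. -/
structure Ctx (H : Subgroup (V ≃ₗ[ZMod p] V)) (a₀ : V) (f₀ : Dual (ZMod p) V) : Prop where
  hone : ∀ a, a ≠ 0 → ∀ b b', Lp H a b → Lp H a b' → b' ≠ 0 → ∃ l : ZMod p, b = l • b'
  h₀ : Lp H a₀ f₀
  ha₀ : a₀ ≠ 0
  hf₀ : f₀ ≠ 0

/-- Normalised form. -/
def IsF (H : Subgroup (V ≃ₗ[ZMod p] V)) (a₀ : V) (f₀ : Dual (ZMod p) V) (w : V)
    (f : Dual (ZMod p) V) : Prop :=
  f₀ w ≠ 0 ∧ Lp H w f ∧ f a₀ = - f₀ w

variable {w w' a a' : V} {f f' b b' : Dual (ZMod p) V}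

theorem Ctx.orth_symm (C : Ctx H a₀ f₀) (ha' : a' ≠ 0) (hb0 : b ≠ 0) (hb'0 : b' ≠ 0)
    (hb : Lp H a b) (hb' : Lp H a' b') (h : b a' = 0) : b' a = 0 := by
  by_contra h2
  have h3 : Lp H a' b := Lp.rule hb' hb h2 h
  obtain ⟨l, rfl⟩ := C.hone a' ha' b b' h3 hb' hb'0
  have hl : l ≠ 0 := by
    rintro rfl
    simp at hb0
  have h4 := hb.1
  simp only [LinearMap.smul_apply, smul_eq_mul, mul_eq_zero] at h4
  tauto

theorem IsF.ne (h : IsF H a₀ f₀ w f) : f ≠ 0 := by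
  rintro rfl
  have h1 := h.2.2
  simp only [LinearMap.zero_apply] at h1
  exact h.1 (by linear_combination h1)

theorem IsF.w_ne (h : IsF H a₀ f₀ w f) : w ≠ 0 := by
  rintro rfl
  exact h.1 (by simp)

theorem IsF.unique (C : Ctx H a₀ f₀) (h : IsF H a₀ f₀ w f) (h' : IsF H a₀ f₀ w f') : f = f' := by
  obtain ⟨l, hl⟩ := C.hone w h.w_ne f f' h.2.1 h'.2.1 h'.ne
  have h1 := h.2.2
  rw [hl] at h1
  simp only [LinearMap.smul_apply, smul_eq_mul, h'.2.2] at h1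
  have h2 : (l - 1) * f₀ w = 0 := by linear_combination -h1
  have h3 : l = 1 := by
    have := (mul_eq_zero.1 h2).resolve_right h.1
    exact sub_eq_zero.1 this
  rw [hl, h3, one_smul]

theorem exists_IsF (C : Ctx H a₀ f₀) (hb0 : b ≠ 0) (hb : Lp H w b) (hf : f₀ w ≠ 0) :
    ∃ f, IsF H a₀ f₀ w f := by
  have h1 : b a₀ ≠ 0 := fun h => hf (C.orth_symm C.ha₀ hb0 C.hf₀ hb C.h₀ h)
  refine ⟨(- f₀ w * (b a₀)⁻¹) • b, hf, hb.smul_right _, ?_⟩
  simp only [LinearMap.smul_apply, smul_eq_mul]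
  field_simp

theorem IsF.add_a₀ (C : Ctx H a₀ f₀) (h : IsF H a₀ f₀ w f) (κ : ZMod p) :
    IsF H a₀ f₀ (w + κ • a₀) (f + κ • f₀) := by
  have hf₀a₀ : f₀ a₀ = 0 := C.h₀.1
  refine ⟨by simpa [hf₀a₀] using h.1, ?_, by simp [hf₀a₀, h.2.2]⟩
  have h1 := (C.h₀.smul_right (κ * (f₀ w)⁻¹)).conj_tv h.2.1
  have e1 : ((κ * (f₀ w)⁻¹) • f₀) w = κ := by
    simp only [LinearMap.smul_apply, smul_eq_mul]
    have := h.1
    field_simp
  have e2 : f - f a₀ • ((κ * (f₀ w)⁻¹) • f₀) = f + κ • f₀ := by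
    ext x
    simp only [h.2.2, LinearMap.sub_apply, LinearMap.smul_apply, smul_eq_mul, LinearMap.add_apply]
    have := h.1
    field_simp
    ring
  rwa [e1, e2] at h1

theorem IsF.smul (h : IsF H a₀ f₀ w f) {l : ZMod p} (hl : l ≠ 0) :
    IsF H a₀ f₀ (l • w) (l • f) := by
  refine ⟨by simpa [hl] using h.1, (h.2.1.smul_left l).smul_right l, ?_⟩
  simp [h.2.2]

/-- L2. -/
theorem IsF.antisymm (C : Ctx H a₀ f₀) (h : IsF H a₀ f₀ w f) (h' : IsF H a₀ f₀ w' f') :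
    f w' = - f' w := by
  have h1 := h'.add_a₀ C (f w' * (f₀ w)⁻¹)
  have h2 : f (w' + (f w' * (f₀ w)⁻¹) • a₀) = 0 := by
    simp only [map_add, map_smul, smul_eq_mul, h.2.2]
    have := h.1
    field_simp
    ring
  have h3 := C.orth_symm h1.w_ne h.ne h1.ne h.2.1 h1.2.1 h2
  simp only [LinearMap.add_apply, LinearMap.smul_apply, smul_eq_mul] at h3
  have := h.1
  field_simp at h3
  linear_combination h3

theorem IsF.conj_add (C : Ctx H a₀ f₀) (h : IsF H a₀ f₀ w f) (h' : IsF H a₀ f₀ w' f')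
    (hne : f w' ≠ 0) (μ : ZMod p) (hμ : f₀ (w' + μ • w) ≠ 0) :
    IsF H a₀ f₀ (w' + μ • w) (f' + μ • f) := by
  refine ⟨hμ, ?_, ?_⟩
  · have h1 := (h.2.1.smul_right (μ * (f w')⁻¹)).conj_tv h'.2.1
    have e1 : ((μ * (f w')⁻¹) • f) w' = μ := by
      simp only [LinearMap.smul_apply, smul_eq_mul]
      field_simp
    have e3 : f' w = - f w' := by
      have := IsF.antisymm C h h'
      linear_combination this
    have e2 : f' - f' w • ((μ * (f w')⁻¹) • f) = f' + μ • f := by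
      ext x
      simp only [e3, LinearMap.sub_apply, LinearMap.smul_apply, smul_eq_mul, LinearMap.add_apply]
      field_simp
      ring
    rwa [e1, e2] at h1
  · simp only [LinearMap.add_apply, LinearMap.smul_apply, smul_eq_mul, map_add, map_smul, h.2.2,
      h'.2.2]
    ring

/-- L3. -/
theorem IsF.add (C : Ctx H a₀ f₀) (h : IsF H a₀ f₀ w f) (h' : IsF H a₀ f₀ w' f')
    (hs : f₀ (w + w') ≠ 0) : IsF H a₀ f₀ (w + w') (f + f') := by
  have hf₀a₀ : f₀ a₀ = 0 := C.h₀.1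
  by_cases hne : f w' = 0
  · have h1 := h'.add_a₀ C 1
    have h2 : f (w' + (1 : ZMod p) • a₀) ≠ 0 := by
      simp only [map_add, map_smul, smul_eq_mul, hne, h.2.2, one_mul, zero_add]
      simpa using h.1
    have h3 := IsF.conj_add C h h1 h2 1 (by
      rw [one_smul, add_comm]
      simpa [hf₀a₀] using hs)
    have h4 := h3.add_a₀ C (-1)
    have e1 : w' + (1 : ZMod p) • a₀ + (1 : ZMod p) • w + (-1 : ZMod p) • a₀ = w + w' := by
      simp only [one_smul, neg_smul]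
      abel
    have e2 : f' + (1 : ZMod p) • f₀ + (1 : ZMod p) • f + (-1 : ZMod p) • f₀ = f + f' := by
      ext x
      simp
      ring
    rwa [e1, e2] at h4
  · have h3 := IsF.conj_add C h h' hne 1 (by rw [one_smul, add_comm]; exact hs)
    have e1 : w' + (1 : ZMod p) • w = w + w' := by rw [one_smul, add_comm]
    have e2 : f' + (1 : ZMod p) • f = f + f' := by rw [one_smul, add_comm]
    rwa [e1, e2] at h3

section Graph

variable {w₀ : V} {g₀ : Dual (ZMod p) V}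

theorem two_ne (hp : Odd p) : (2 : ZMod p) ≠ 0 := by
  intro h
  have h1 : ((2 : ℕ) : ZMod p) = 0 := by exact_mod_cast h
  rw [ZMod.natCast_eq_zero_iff] at h1
  have hpp : p.Prime := Fact.out
  have h2 : p = 2 := (Nat.prime_dvd_prime_iff_eq hpp Nat.prime_two).1 h1
  rw [h2] at hp
  exact absurd hp (by decide)

theorem aff2 (hp : Odd p) (C : Ctx H a₀ f₀) (hw : IsF H a₀ f₀ w₀ g₀) (h1 : f₀ w₀ = 1)
    {w₁ w₂ : V} {f₁ f₂ : Dual (ZMod p) V} (h₁ : IsF H a₀ f₀ w₁ f₁) (h₂ : IsF H a₀ f₀ w₂ f₂)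
    (e₁ : f₀ w₁ = 1) (e₂ : f₀ w₂ = 1) : IsF H a₀ f₀ (w₁ + w₂ - w₀) (f₁ + f₂ - g₀) := by
  have h3 : IsF H a₀ f₀ (w₁ + w₂) (f₁ + f₂) := IsF.add C h₁ h₂ (by
    rw [map_add, e₁, e₂]
    have := two_ne hp
    norm_num
    exact this)
  have h4 := hw.smul (l := -1) (by simp)
  have h5 := IsF.add C h3 h4 (by
    simp [e₁, e₂, h1])
  have e3 : w₁ + w₂ + (-1 : ZMod p) • w₀ = w₁ + w₂ - w₀ := by
    simp [sub_eq_add_neg]
  have e4 : f₁ + f₂ + (-1 : ZMod p) • g₀ = f₁ + f₂ - g₀ := by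
    ext x; simp [sub_eq_add_neg]
  rwa [e3, e4] at h5

theorem aff1 (C : Ctx H a₀ f₀) (hw : IsF H a₀ f₀ w₀ g₀) (h1 : f₀ w₀ = 1)
    {w₁ : V} {f₁ : Dual (ZMod p) V} (h₁ : IsF H a₀ f₀ w₁ f₁) (e₁ : f₀ w₁ = 1) (l : ZMod p) :
    IsF H a₀ f₀ (l • w₁ + (1 - l) • w₀) (l • f₁ + (1 - l) • g₀) := by
  by_cases hl : l = 0
  · subst hl; simpa using hw
  by_cases hl1 : 1 - l = 0
  · have : l = 1 := by linear_combination -hl1
    subst this; simpa using h₁
  refine IsF.add C (h₁.smul hl) (hw.smul hl1) ?_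
  simp [e₁, h1]

/-- The graph of `Φ`. -/
def Gam (hp : Odd p) (C : Ctx H a₀ f₀) (hw : IsF H a₀ f₀ w₀ g₀) (h1 : f₀ w₀ = 1) :
    Submodule (ZMod p) (V × Dual (ZMod p) V) where
  carrier := {x | IsF H a₀ f₀ (x.1 + (1 - f₀ x.1) • w₀) (x.2 + (1 - f₀ x.1) • g₀)}
  add_mem' := by
    rintro ⟨y, φ⟩ ⟨y', φ'⟩ hx hx'
    simp only [Set.mem_ofPred_eq, Prod.fst_add, Prod.snd_add] at hx hx' ⊢
    have h3 := aff2 hp C hw h1 hx hx' (by simp [h1]) (by simp [h1])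
    have e1 : y + (1 - f₀ y) • w₀ + (y' + (1 - f₀ y') • w₀) - w₀ =
        y + y' + (1 - f₀ (y + y')) • w₀ := by
      rw [map_add]
      simp only [sub_smul, add_smul, one_smul]
      abel
    have e2 : φ + (1 - f₀ y) • g₀ + (φ' + (1 - f₀ y') • g₀) - g₀ =
        φ + φ' + (1 - f₀ (y + y')) • g₀ := by
      ext x
      simp only [LinearMap.add_apply, LinearMap.sub_apply, LinearMap.smul_apply, smul_eq_mul,
        map_add]
      ring
    rwa [e1, e2] at h3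
  zero_mem' := by
    simpa using hw
  smul_mem' := by
    rintro l ⟨y, φ⟩ hx
    simp only [Set.mem_ofPred_eq, Prod.smul_fst, Prod.smul_snd] at hx ⊢
    have h3 := aff1 C hw h1 hx (by simp [h1]) l
    have e1 : l • (y + (1 - f₀ y) • w₀) + (1 - l) • w₀ = l • y + (1 - f₀ (l • y)) • w₀ := by
      rw [map_smul, smul_add, smul_smul, add_assoc, ← add_smul]
      congr 2
      simp only [smul_eq_mul]
      ring
    have e2 : l • (φ + (1 - f₀ y) • g₀) + (1 - l) • g₀ = l • φ + (1 - f₀ (l • y)) • g₀ := by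
      ext x
      simp only [LinearMap.add_apply, LinearMap.sub_apply, LinearMap.smul_apply, smul_eq_mul,
        map_smul]
      ring
    rwa [e1, e2] at h3

variable {hp : Odd p} {C : Ctx H a₀ f₀} {hw : IsF H a₀ f₀ w₀ g₀} {h1 : f₀ w₀ = 1}

theorem mem_Gam_iff {x : V × Dual (ZMod p) V} :
    x ∈ Gam hp C hw h1 ↔ IsF H a₀ f₀ (x.1 + (1 - f₀ x.1) • w₀) (x.2 + (1 - f₀ x.1) • g₀) := Iff.rfl

theorem mem_Gam_of_IsF (hwf : IsF H a₀ f₀ w f) : (w, f) ∈ Gam hp C hw h1 := by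
  rw [mem_Gam_iff]
  by_cases hc : 1 - f₀ w = 0
  · simpa [hc] using hwf
  · refine IsF.add C hwf (hw.smul hc) ?_
    simp [h1]

theorem IsF_of_mem_Gam {y : V} {φ : Dual (ZMod p) V} (hx : (y, φ) ∈ Gam hp C hw h1)
    (hy : f₀ y ≠ 0) : IsF H a₀ f₀ y φ := by
  have h2 := (Gam hp C hw h1).smul_mem (f₀ y)⁻¹ hx
  rw [mem_Gam_iff] at h2
  simp only [Prod.smul_fst, Prod.smul_snd, map_smul, smul_eq_mul, inv_mul_cancel₀ hy, sub_self,
    zero_smul, add_zero] at h2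
  have h3 := h2.smul hy
  simpa [smul_smul, inv_inv, mul_inv_cancel₀ hy] using h3

theorem eq_zero_of_mem_Gam {φ : Dual (ZMod p) V} (hx : ((0 : V), φ) ∈ Gam hp C hw h1) : φ = 0 := by
  rw [mem_Gam_iff] at hx
  simp only [map_zero, sub_zero, one_smul, zero_add] at hx
  have := IsF.unique C hx hw
  simpa using this

end Graph

/-- Existence of `Y` and `Φ`. -/
theorem exists_Phi {w₀ : V} {g₀ : Dual (ZMod p) V} (hp : Odd p) (C : Ctx H a₀ f₀)
    (hw : IsF H a₀ f₀ w₀ g₀) (h1 : f₀ w₀ = 1) :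
    ∃ (Y : Submodule (ZMod p) V) (Φ : V →ₗ[ZMod p] Dual (ZMod p) V),
      (∀ y ∈ Y, f₀ y ≠ 0 → IsF H a₀ f₀ y (Φ y)) ∧ (∀ w f, IsF H a₀ f₀ w f → w ∈ Y ∧ Φ w = f) := by
  let G := Gam hp C hw h1
  have hG : ∀ x : V × Dual (ZMod p) V, x ∈ G → x.1 = 0 → x.2 = 0 := by
    rintro ⟨y, φ⟩ hx hy
    simp only at hy
    subst hy
    exact eq_zero_of_mem_Gam hx
  let P := G.toLinearPMap
  obtain ⟨Φ, hΦ⟩ := LinearMap.exists_extend (P.toFun)
  have hmem : ∀ y (hy : y ∈ G.map (LinearMap.fst (ZMod p) V (Dual (ZMod p) V))), (y, Φ y) ∈ G := by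
    intro y hy
    have h2 := Submodule.mem_graph_toLinearPMap hG ⟨y, hy⟩
    have h3 : Φ y = P ⟨y, hy⟩ := by
      have := LinearMap.congr_fun hΦ ⟨y, hy⟩
      simpa using this
    rw [h3]
    exact h2
  refine ⟨G.map (LinearMap.fst (ZMod p) V (Dual (ZMod p) V)), Φ, ?_, ?_⟩
  · intro y hy hf
    exact IsF_of_mem_Gam (hmem y hy) hf
  · intro w f hwf
    have hG1 : (w, f) ∈ G := mem_Gam_of_IsF hwf
    have hy : w ∈ G.map (LinearMap.fst (ZMod p) V (Dual (ZMod p) V)) := ⟨(w, f), hG1, rfl⟩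
    refine ⟨hy, ?_⟩
    have h2 := G.sub_mem (hmem w hy) hG1
    simp only [Prod.mk_sub_mk, sub_self] at h2
    have := eq_zero_of_mem_Gam h2
    exact sub_eq_zero.1 this

end Cfsg.Agent.Lib.McL.Form
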