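/-
McLaughlin's theorem, the case where every point has a single form up to scalars: all pairs come from `Φ`,
the form on `Y` is alternating and nondegenerate, `V = Y ⊕ Z`.
-/
import Mathlib
import Cfsg.Agent.Lib.McL.Form

set_option autoImplicit false

namespace Cfsg.Agent.Lib.McL.Form2

open Module Cfsg.Agent.Lib.McL.Core Cfsg.Agent.Lib.McL.Flag Cfsg.Agent.Lib.McL.Form

variable {p : ℕ} [Fact p.Prime] {V : Type*} [AddCommGroup V] [Module (ZMod p) V]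
  {H : Subgroup (V ≃ₗ[ZMod p] V)} {a₀ : V} {f₀ : Dual (ZMod p) V}
  {w₀ : V} {g₀ : Dual (ZMod p) V} {Y : Submodule (ZMod p) V} {Φ : V →ₗ[ZMod p] Dual (ZMod p) V}

/-- The data `(Y, Φ)`. -/
structure PhiCtx (H : Subgroup (V ≃ₗ[ZMod p] V)) (a₀ : V) (f₀ : Dual (ZMod p) V)
    (w₀ : V) (g₀ : Dual (ZMod p) V) (Y : Submodule (ZMod p) V)
    (Φ : V →ₗ[ZMod p] Dual (ZMod p) V) : Prop where
  C : Ctx H a₀ f₀
  hw : IsF H a₀ f₀ w₀ g₀
  h1 : f₀ w₀ = 1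
  hY : ∀ y ∈ Y, f₀ y ≠ 0 → IsF H a₀ f₀ y (Φ y)
  hΦ : ∀ w f, IsF H a₀ f₀ w f → w ∈ Y ∧ Φ w = f
  hp : Odd p

variable {w w' a a' y y' : V} {f f' b b' : Dual (ZMod p) V}

namespace PhiCtx

variable (D : PhiCtx H a₀ f₀ w₀ g₀ Y Φ)
include D

theorem w₀Y : w₀ ∈ Y := (D.hΦ _ _ D.hw).1

theorem Φw₀ : Φ w₀ = g₀ := (D.hΦ _ _ D.hw).2

theorem decomp (hy : y ∈ Y) :
    ∃ (w₁ : V) (f₁ : Dual (ZMod p) V) (c : ZMod p), IsF H a₀ f₀ w₁ f₁ ∧ y = w₁ - c • w₀ ∧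
      Φ y = f₁ - c • g₀ := by
  have hw₁ : y + (1 - f₀ y) • w₀ ∈ Y := Y.add_mem hy (Y.smul_mem _ D.w₀Y)
  have hf : f₀ (y + (1 - f₀ y) • w₀) = 1 := by simp [D.h1]
  have hI := D.hY _ hw₁ (by rw [hf]; exact one_ne_zero)
  refine ⟨_, _, 1 - f₀ y, hI, by simp, ?_⟩
  rw [map_add, map_smul, D.Φw₀]
  simp

theorem anti1 (hy : y ∈ Y) (hf : IsF H a₀ f₀ w f) : Φ y w = - f y := by
  obtain ⟨w₁, f₁, c, h1, rfl, h3⟩ := D.decomp hy
  rw [h3]
  have e1 := IsF.antisymm D.C h1 hf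
  have e2 := IsF.antisymm D.C D.hw hf
  simp only [LinearMap.sub_apply, LinearMap.smul_apply, smul_eq_mul, map_sub, map_smul, e1, e2]
  ring

theorem anti (hy : y ∈ Y) (hy' : y' ∈ Y) : Φ y y' = - Φ y' y := by
  obtain ⟨w₂, f₂, c, h1, rfl, h3⟩ := D.decomp hy'
  rw [h3]
  simp only [map_sub, map_smul, smul_eq_mul, LinearMap.sub_apply, LinearMap.smul_apply,
    D.anti1 hy h1, D.anti1 hy D.hw]
  ring

theorem alt (hy : y ∈ Y) : Φ y y = 0 := by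
  have h1 := D.anti hy hy
  have h2 : (2 : ZMod p) * Φ y y = 0 := by linear_combination h1
  exact (mul_eq_zero.1 h2).resolve_left (two_ne D.hp)

theorem a₀Y : a₀ ∈ Y ∧ Φ a₀ = f₀ := by
  have h1 := D.hw.add_a₀ D.C 1
  obtain ⟨h2, h3⟩ := D.hΦ _ _ h1
  have h4 : a₀ = (w₀ + (1 : ZMod p) • a₀) - w₀ := by simp
  constructor
  · rw [h4]
    exact Y.sub_mem h2 D.w₀Y
  · rw [h4, map_sub, h3, D.Φw₀]
    ext x
    simp

end PhiCtx

/-- A point of `Y` with a neighbour among the normalised points. -/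
def Good (H : Subgroup (V ≃ₗ[ZMod p] V)) (a₀ : V) (f₀ : Dual (ZMod p) V)
    (Y : Submodule (ZMod p) V) (y : V) : Prop :=
  y ∈ Y ∧ ∃ w f, IsF H a₀ f₀ w f ∧ f y ≠ 0

namespace PhiCtx

variable (D : PhiCtx H a₀ f₀ w₀ g₀ Y Φ)
include D

theorem good_of_ne (hy : y ∈ Y) (hf : f₀ y ≠ 0) : Good H a₀ f₀ Y y := by
  have h1 := (D.hY y hy hf).add_a₀ D.C 1
  refine ⟨hy, _, _, h1, ?_⟩
  simp only [LinearMap.add_apply, LinearMap.smul_apply, smul_eq_mul, one_mul, D.alt hy, zero_add]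
  exact hf

theorem good_a₀ : Good H a₀ f₀ Y a₀ := by
  refine ⟨D.a₀Y.1, _, _, D.hw, ?_⟩
  rw [D.hw.2.2, D.h1]
  simp

/-- Claim A. -/
theorem claimA (hy : Good H a₀ f₀ Y y) : Lp H y (Φ y) ∧ Φ y ≠ 0 := by
  by_cases hf : f₀ y = 0
  · obtain ⟨hyY, w, f, hwf, hfy⟩ := hy
    obtain ⟨hwY, hΦw⟩ := D.hΦ w f hwf
    have hw'Y : y + w ∈ Y := Y.add_mem hyY hwY
    have hf' : f₀ (y + w) ≠ 0 := by
      rw [map_add, hf, zero_add]; exact hwf.1
    have hI := D.hY _ hw'Y hf'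
    have hΦw' : Φ (y + w) = Φ y + f := by rw [map_add, hΦw]
    have h1 := (hwf.2.1.smul_right (-(f y)⁻¹)).conj_tv hI.2.1
    have e1 : ((-(f y)⁻¹) • f) (y + w) = -1 := by
      rw [LinearMap.smul_apply, map_add, hwf.2.1.1, add_zero, smul_eq_mul, neg_mul,
        inv_mul_cancel₀ hfy]
    have e3 : Φ (y + w) w = - f y := by
      rw [hΦw']
      simp only [LinearMap.add_apply, D.anti1 hyY hwf, hwf.2.1.1, add_zero]
    have e2 : Φ (y + w) - Φ (y + w) w • ((-(f y)⁻¹) • f) = Φ y := by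
      rw [e3, hΦw']
      ext x
      simp only [LinearMap.add_apply, LinearMap.sub_apply, LinearMap.smul_apply, smul_eq_mul]
      field_simp
      ring
    rw [e1, e2] at h1
    have e4 : y + w + (-1 : ZMod p) • w = y := by simp
    rw [e4] at h1
    refine ⟨h1, fun h0 => ?_⟩
    have h2 := D.anti1 hyY hwf
    rw [h0] at h2
    simp only [LinearMap.zero_apply] at h2
    exact hfy (by linear_combination h2)
  · have hI := D.hY y hy.1 hf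
    exact ⟨hI.2.1, hI.ne⟩

/-- Claim B1. -/
theorem claimB1 (hy : Good H a₀ f₀ Y y) (hne : Φ y a' ≠ 0) :
    ∃ W F, IsF H a₀ f₀ W F ∧ F a' ≠ 0 := by
  by_cases hf : f₀ y = 0
  · obtain ⟨hyY, w, f, hwf, hfy⟩ := hy
    obtain ⟨hwY, hΦw⟩ := D.hΦ w f hwf
    have hW : w + ((1 - f a') * (Φ y a')⁻¹) • y ∈ Y := Y.add_mem hwY (Y.smul_mem _ hyY)
    have hf' : f₀ (w + ((1 - f a') * (Φ y a')⁻¹) • y) ≠ 0 := by
      simp only [map_add, map_smul, hf, smul_zero, add_zero]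
      exact hwf.1
    refine ⟨_, _, D.hY _ hW hf', ?_⟩
    simp only [map_add, map_smul, hΦw, LinearMap.add_apply, LinearMap.smul_apply, smul_eq_mul]
    have : f a' + (1 - f a') * (Φ y a')⁻¹ * Φ y a' = 1 := by
      field_simp
      ring
    rw [this]
    exact one_ne_zero
  · exact ⟨y, _, D.hY y hy.1 hf, hne⟩

/-- Claim B2. -/
theorem claimB2 {W : V} {F : Dual (ZMod p) V} (hW : IsF H a₀ f₀ W F) (hne : F a' ≠ 0)
    (hb'0 : b' ≠ 0) (hL : Lp H a' b') : a' ∈ Y := by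
  by_cases hf : f₀ a' = 0
  · have h1 := (hW.2.1.smul_right ((F a')⁻¹)).conj_tv hL
    have e1 : ((F a')⁻¹ • F) a' = 1 := by
      simp [inv_mul_cancel₀ hne]
    rw [e1, one_smul] at h1
    have hb'' : b' - b' W • ((F a')⁻¹ • F) ≠ 0 := by
      intro h0
      have h2 : b' = b' W • ((F a')⁻¹ • F) := sub_eq_zero.1 h0
      have h3 : b' a' = 0 := hL.1
      rw [h2] at h3
      simp only [LinearMap.smul_apply, smul_eq_mul, mul_eq_zero, inv_eq_zero] at h3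
      have h4 : b' W = 0 := by
        rcases h3 with h | h | h
        · rw [h2] at h
          simp only [LinearMap.smul_apply, smul_eq_mul, hW.2.1.1, mul_zero] at h
          rw [h2]
          simp [hW.2.1.1]
        · exact absurd h hne
        · exact absurd h hne
      rw [h4, zero_smul] at h2
      exact hb'0 h2
    have hf' : f₀ (a' + W) ≠ 0 := by
      rw [map_add, hf, zero_add]; exact hW.1
    obtain ⟨f', hf''⟩ := exists_IsF D.C hb'' h1 hf'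
    have h2 := (D.hΦ _ _ hf'').1
    have h3 := Y.sub_mem h2 (D.hΦ _ _ hW).1
    simpa using h3
  · have h0 : b' ≠ 0 := hb'0
    obtain ⟨f', hf''⟩ := exists_IsF D.C h0 hL hf
    exact (D.hΦ _ _ hf'').1

theorem claimB (hy : Good H a₀ f₀ Y y) (hne : Φ y a' ≠ 0) (hb'0 : b' ≠ 0) (hL : Lp H a' b') :
    Good H a₀ f₀ Y a' := by
  obtain ⟨W, F, hW, hF⟩ := D.claimB1 hy hne
  exact ⟨D.claimB2 hW hF hb'0 hL, W, F, hW, hF⟩

/-- Claim C. -/
theorem claimC (hconn : Conn H) : ∀ a b, a ≠ 0 → b ≠ 0 → Lp H a b → Good H a₀ f₀ Y a := by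
  have hfull := hconn (fun a b => a ≠ 0 ∧ b ≠ 0 ∧ Lp H a b ∧ Good H a₀ f₀ Y a)
    (fun a b h => ⟨h.1, h.2.1, h.2.2.1⟩)
    ⟨a₀, f₀, D.C.ha₀, D.C.hf₀, D.C.h₀, D.good_a₀⟩
    (by
      rintro a b a' b' ⟨ha, hb, hL, hG⟩ ha' hb' hL' hn
      have hA := D.claimA hG
      obtain ⟨l, rfl⟩ := D.C.hone a ha b (Φ a) hL hA.1 hA.2
      have hl : l ≠ 0 := by
        rintro rfl
        simp at hb
      have h1 : (l • Φ a) a' = 0 := by
        by_contra hcon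
        have h2 : Φ a a' ≠ 0 := by
          intro h0
          apply hcon
          simp [h0]
        exact hn ⟨ha', hb', hL', D.claimB hG h2 hb' hL'⟩
      exact ⟨h1, D.C.orth_symm ha' hb hb' hL hL' h1⟩)
  intro a b ha hb hL
  exact (hfull a b ha hb hL).2.2.2

theorem pair (hconn : Conn H) (ha : a ≠ 0) (hb : b ≠ 0) (hL : Lp H a b) :
    a ∈ Y ∧ Lp H a (Φ a) ∧ ∃ l : ZMod p, b = l • Φ a := by
  have hG := D.claimC hconn a b ha hb hL
  have hA := D.claimA hG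
  exact ⟨hG.1, hA.1, D.C.hone a ha b (Φ a) hL hA.1 hA.2⟩

end PhiCtx

/-- The fixed space. -/
def ZZ (Y : Submodule (ZMod p) V) (Φ : V →ₗ[ZMod p] Dual (ZMod p) V) : Submodule (ZMod p) V :=
  ⨅ (y : V), ⨅ (_ : y ∈ Y), LinearMap.ker (Φ y)

theorem mem_ZZ {x : V} : x ∈ ZZ Y Φ ↔ ∀ y ∈ Y, Φ y x = 0 := by
  simp [ZZ, Submodule.mem_iInf]

namespace PhiCtx

variable (D : PhiCtx H a₀ f₀ w₀ g₀ Y Φ)
include D

theorem mem_ZZ_iff (hconn : Conn H) {x : V} :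
    x ∈ ZZ Y Φ ↔ ∀ a b, a ≠ 0 → b ≠ 0 → Lp H a b → b x = 0 := by
  rw [mem_ZZ]
  constructor
  · intro h a b ha hb hL
    obtain ⟨h1, _, l, rfl⟩ := D.pair hconn ha hb hL
    simp [h a h1]
  · intro h y hy
    obtain ⟨w₁, f₁, c, h1, _, h3⟩ := D.decomp hy
    rw [h3]
    simp [h w₁ f₁ h1.w_ne h1.ne h1.2.1, h w₀ g₀ D.hw.w_ne D.hw.ne D.hw.2.1]

theorem hinvY {g : V ≃ₗ[ZMod p] V} (hg : g ∈ H) (hconn : Conn H) : ∀ y ∈ Y, g y ∈ Y := by
  have hc : ∀ w f, IsF H a₀ f₀ w f → g w ∈ Y := by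
    intro w f hwf
    have h1 := Lp.conj hg hwf.2.1
    have h2 : g w ≠ 0 := by simpa using hwf.w_ne
    have h3 : f ∘ₗ (g.symm : V →ₗ[ZMod p] V) ≠ 0 := by
      intro h0
      apply hwf.ne
      ext x
      have := LinearMap.congr_fun h0 (g x)
      simpa using this
    exact (D.pair hconn h2 h3 h1).1
  intro y hy
  obtain ⟨w₁, f₁, c, h1, rfl, _⟩ := D.decomp hy
  rw [map_sub, map_smul]
  exact Y.sub_mem (hc _ _ h1) (Y.smul_mem _ (hc _ _ D.hw))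

theorem hinvZ {g : V ≃ₗ[ZMod p] V} (hg : g ∈ H) (hconn : Conn H) :
    ∀ x ∈ ZZ Y Φ, g x ∈ ZZ Y Φ := by
  intro x hx
  rw [D.mem_ZZ_iff hconn] at hx ⊢
  intro a b ha hb hL
  have h1 : Lp H ((g⁻¹ : V ≃ₗ[ZMod p] V) a) (b ∘ₗ (g : V →ₗ[ZMod p] V)) := by
    have h2 := Lp.conj (H.inv_mem hg) hL
    exact h2
  have h2 : (g⁻¹ : V ≃ₗ[ZMod p] V) a ≠ 0 := by simpa using ha
  have h3 : b ∘ₗ (g : V →ₗ[ZMod p] V) ≠ 0 := by
    intro h0
    apply hb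
    ext v
    have := LinearMap.congr_fun h0 (g.symm v)
    simpa using this
  have := hx _ _ h2 h3 h1
  simpa using this

/-- `Y ∩ Z = 0`. -/
theorem inter_eq (hF : FlagFree H) (hconn : Conn H) {z : V} (hzY : z ∈ Y) (hzZ : z ∈ ZZ Y Φ) :
    z = 0 := by
  by_contra hz0
  have hZ := mem_ZZ.1 hzZ
  have hf₀z : f₀ z = 0 := by
    have := hZ a₀ D.a₀Y.1
    rwa [D.a₀Y.2] at this
  have hg₀z : g₀ z = 0 := by
    have := hZ w₀ D.w₀Y
    rwa [D.Φw₀] at this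
  have hwzY : w₀ + z ∈ Y := Y.add_mem D.w₀Y hzY
  have hf : f₀ (w₀ + z) ≠ 0 := by
    rw [map_add, hf₀z, D.h1, add_zero]; exact one_ne_zero
  have hI := D.hY _ hwzY hf
  have hΦ2 : Φ (w₀ + z) = g₀ + Φ z := by rw [map_add, D.Φw₀]
  rw [hΦ2] at hI
  have hL₁ : Lp H w₀ g₀ := D.hw.2.1
  have hL₂ : Lp H (w₀ + z) (g₀ + Φ z) := hI.2.1
  set t₁ := LinearEquiv.transvection hL₁.1 with ht₁
  set t₂ := LinearEquiv.transvection hL₂.1 with ht₂
  have hinv2 : ∀ x, t₂⁻¹ x = x - (g₀ + Φ z) x • (w₀ + z) := by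
    intro x
    show t₂.symm x = _
    rw [LinearEquiv.symm_apply_eq, ht₂, tv_apply]
    have := hL₂.1
    simp only [map_sub, map_smul, this, smul_eq_mul, mul_zero, sub_zero]
    abel
  have hq : ∀ x, (t₁ * t₂⁻¹) x - x = - (Φ z x • w₀ + (g₀ x + Φ z x) • z) := by
    intro x
    rw [LinearEquiv.mul_apply, hinv2, ht₁, tv_apply]
    have e1 : g₀ (x - (g₀ + Φ z) x • (w₀ + z)) = g₀ x := by
      simp [hL₁.1, hg₀z]
    rw [e1]
    simp only [LinearMap.add_apply, smul_add, add_smul]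
    abel
  have hAinv : ∀ h ∈ H, ∀ x ∈ Y ⊓ ZZ Y Φ, h x ∈ Y ⊓ ZZ Y Φ := fun h hh x hx =>
    ⟨D.hinvY hh hconn x hx.1, D.hinvZ hh hconn x hx.2⟩
  have hBinv : ∀ h ∈ H, ∀ x ∈ Y, h x ∈ Y := fun h hh x hx => D.hinvY hh hconn x hx
  have hΦzY : ∀ v ∈ Y, Φ z v = 0 := by
    intro v hv
    rw [D.anti hzY hv, hZ v hv, neg_zero]
  have h1 := hF (Y ⊓ ZZ Y Φ) Y inf_le_left hAinv hBinv (t₁ * t₂⁻¹)
    (H.mul_mem hL₁.2 (H.inv_mem hL₂.2))
    (fun v => by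
      rw [hq]
      exact Y.neg_mem (Y.add_mem (Y.smul_mem _ D.w₀Y) (Y.smul_mem _ hzY)))
    (fun v hv => by
      rw [hq, hΦzY v hv, zero_smul, zero_add, add_zero]
      exact Submodule.neg_mem _ (Submodule.smul_mem _ _ ⟨hzY, hzZ⟩))
    (fun v hv => by
      have h2 := hq v
      have e1 : g₀ v = 0 := by
        have := (mem_ZZ.1 hv.2) w₀ D.w₀Y
        rwa [D.Φw₀] at this
      rw [hΦzY v hv.1, e1] at h2
      simpa [sub_eq_zero] using h2)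
  have h3 : ∀ x, Φ z x • w₀ + (g₀ x + Φ z x) • z = 0 := by
    intro x
    have := hq x
    rw [h1] at this
    have e : (1 : V ≃ₗ[ZMod p] V) x - x = 0 := by simp
    rw [e] at this
    exact neg_eq_zero.1 this.symm
  have h4 : ∀ x, Φ z x = 0 := by
    intro x
    have := congrArg f₀ (h3 x)
    simpa [D.h1, hf₀z] using this
  have h5 : ∀ x, g₀ x = 0 := by
    intro x
    have := h3 x
    rw [h4 x] at this
    simp only [zero_smul, zero_add, add_zero, smul_eq_zero] at this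
    exact this.resolve_right hz0
  exact D.hw.ne (LinearMap.ext h5)

end PhiCtx

end Cfsg.Agent.Lib.McL.Form2
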