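/-
McLaughlin's theorem, the case of a point with at least two independent forms: the connected group
induces the full special linear group on a complemented subspace.
-/
import Mathlib
import Cfsg.Agent.Lib.McL.Flag

set_option autoImplicit false

namespace Cfsg.Agent.Lib.McL.HighRank

open Module Cfsg.Agent.Lib.McL.Core Cfsg.Agent.Lib.McL.Flag

variable {p : ℕ} [Fact p.Prime] {V : Type*} [AddCommGroup V] [Module (ZMod p) V]
  {H : Subgroup (V ≃ₗ[ZMod p] V)} {d : ℕ} {a a' w w' : V} {b c : Dual (ZMod p) V}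

/-- The points of dimension `d`. -/
def Sd (H : Subgroup (V ≃ₗ[ZMod p] V)) (d : ℕ) (a : V) : Prop :=
  a ≠ 0 ∧ Module.finrank (ZMod p) (BB H a) = d

theorem Sd.map {g : V ≃ₗ[ZMod p] V} (hg : g ∈ H) (h : Sd H d a) : Sd H d (g a) :=
  ⟨by simpa using h.1, (finrank_BB_map hg).trans h.2⟩

theorem Sd.smul {κ : ZMod p} (hκ : κ ≠ 0) (h : Sd H d a) : Sd H d (κ • a) :=
  ⟨smul_ne_zero hκ h.1, by rw [BB_smul hκ]; exact h.2⟩

theorem span_inv {S : Set V} {g : V ≃ₗ[ZMod p] V} (hS : ∀ x ∈ S, g x ∈ S) :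
    ∀ x ∈ Submodule.span (ZMod p) S, g x ∈ Submodule.span (ZMod p) S := by
  intro x hx
  induction hx using Submodule.span_induction with
  | mem x h => exact Submodule.subset_span (hS x h)
  | zero => simp
  | add x y _ _ hx hy => rw [map_add]; exact Submodule.add_mem _ hx hy
  | smul c x _ hx => rw [map_smul]; exact Submodule.smul_mem _ c hx

/-- A transvection which is trivial is trivial. -/
theorem eq_zero_or_of_tv_eq_one {a : V} {b : Dual (ZMod p) V} (h : b a = 0)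
    (he : LinearEquiv.transvection h = 1) : a = 0 ∨ b = 0 := by
  by_contra hcon
  push Not at hcon
  obtain ⟨x, hx⟩ : ∃ x, b x ≠ 0 := by
    by_contra hh
    push Not at hh
    exact hcon.2 (LinearMap.ext hh)
  have := LinearEquiv.congr_fun he x
  rw [tv_apply] at this
  have h2 : b x • a = 0 := by simpa using this
  rcases smul_eq_zero.1 h2 with h3 | h3
  · exact hx h3
  · exact hcon.1 h3

/-- (P1) -/
theorem exists_Sd_apply_ne (hF : FlagFree H) (ha : Sd H d a) (hc : Lp H a c) (hc0 : c ≠ 0) :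
    ∃ w, Sd H d w ∧ c w ≠ 0 := by
  by_contra hcon
  push Not at hcon
  let A := Submodule.span (ZMod p) {w | Sd H d w}
  have hkill : ∀ x ∈ A, c x = 0 := by
    intro x hx
    induction hx using Submodule.span_induction with
    | mem x h => exact hcon x h
    | zero => simp
    | add x y _ _ hx hy => rw [map_add, hx, hy, add_zero]
    | smul κ x _ hx => rw [map_smul, hx, smul_zero]
  have hinv : ∀ h ∈ H, ∀ x ∈ A, h x ∈ A := fun h hh x hx =>
    span_inv (S := {w | Sd H d w}) (fun y hy => Sd.map hh hy) x hx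
  have h11 : ∀ v, LinearEquiv.transvection hc.1 v - v ∈ A := by
    intro v
    rw [tv_apply, add_sub_cancel_left]
    exact Submodule.smul_mem _ _ (Submodule.subset_span ha)
  have h12 : ∀ v ∈ A, LinearEquiv.transvection hc.1 v = v := by
    intro v hv
    rw [tv_apply, hkill v hv, zero_smul, add_zero]
  have h1 := hF.two A hinv hc.2 h11 h12
  rcases eq_zero_or_of_tv_eq_one hc.1 h1 with h2 | h2
  · exact ha.1 h2
  · exact hc0 h2

/-- A space of forms of dimension at least two has a nonzero form killing any vector. -/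
theorem exists_ne_zero_kill [Module.Finite (ZMod p) V] {S : Submodule (ZMod p) (Dual (ZMod p) V)}
    (hS : 2 ≤ Module.finrank (ZMod p) S) (x : V) : ∃ c ∈ S, c ≠ 0 ∧ c x = 0 := by
  let φ : S →ₗ[ZMod p] ZMod p := (Module.Dual.eval (ZMod p) V x).comp S.subtype
  have hker : LinearMap.ker φ ≠ ⊥ := by
    apply LinearMap.ker_ne_bot_of_finrank_lt
    rw [Module.finrank_self]
    omega
  obtain ⟨y, hy, hy0⟩ := Submodule.exists_mem_ne_zero_of_ne_bot hker
  refine ⟨y.1, y.2, fun h => hy0 (Subtype.ext h), ?_⟩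
  exact hy

section FD

variable [Module.Finite (ZMod p) V]

theorem not_mem_UU_symm' (ha : Sd H d a) (ha' : Sd H d a') (h : a' ∉ UU H a) : a ∉ UU H a' :=
  not_mem_UU_symm (ha'.2.trans ha.2.symm) h

/-- Lemma 6. -/
theorem mem_UU_of_R (hF : FlagFree H) (hd2 : 2 ≤ d) (ha : Sd H d a) (hw : Sd H d w)
    (hw' : Sd H d w') (hwa : w ∉ UU H a) (hwa' : w' ∉ UU H a) {x : V} (hx : x ∈ UU H a)
    (hx' : x ∈ UU H w) : x ∈ UU H w' := by
  have e1 := hw.2.trans ha.2.symm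
  have e2 := hw'.2.trans ha.2.symm
  by_cases hex : ∃ c, Lp H a c ∧ c w = 0 ∧ c w' ≠ 0
  · obtain ⟨c, hc, h1, h2⟩ := hex
    exact mem_UU_of_main e1 e2 hwa hwa' hc h1 h2 hx hx'
  push Not at hex
  obtain ⟨c₁, hc₁, hc₁0, hc₁w⟩ := exists_ne_zero_kill (S := BB H a) (by rw [ha.2]; exact hd2) w
  obtain ⟨w'', hw'', hc₁w''⟩ := exists_Sd_apply_ne hF ha hc₁ hc₁0
  have hw''a : w'' ∉ UU H a := not_mem_UU.2 ⟨c₁, hc₁, hc₁w''⟩
  have hx'' : x ∈ UU H w'' :=
    mem_UU_of_main e1 (hw''.2.trans ha.2.symm) hwa hw''a hc₁ hc₁w hc₁w'' hx hx'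
  obtain ⟨c_w, hc_w, hc_ww⟩ := not_mem_UU.1 hwa
  -- c₂
  have hc₂ : Lp H a (c_w - (c_w w'' * (c₁ w'')⁻¹) • c₁) := hc_w.sub_right (hc₁.smul_right _)
  have hc₂w'' : (c_w - (c_w w'' * (c₁ w'')⁻¹) • c₁) w'' = 0 := by
    simp only [LinearMap.sub_apply, LinearMap.smul_apply, smul_eq_mul]
    field_simp
    ring
  have hc₂w : (c_w - (c_w w'' * (c₁ w'')⁻¹) • c₁) w = c_w w := by
    simp [hc₁w]
  -- `c₂ w' ≠ 0`
  have hc₂w' : (c_w - (c_w w'' * (c₁ w'')⁻¹) • c₁) w' ≠ 0 := by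
    intro h0
    -- `c w' = 0 → c w = 0`
    obtain ⟨c₃, hc₃, hc₃w'⟩ := not_mem_UU.1 hwa'
    have hc₃w : c₃ w ≠ 0 := fun h => hc₃w' (hex c₃ hc₃ h)
    set c₂ := c_w - (c_w w'' * (c₁ w'')⁻¹) • c₁ with hc₂def
    have h4 : Lp H a (c₂ - (c₂ w * (c₃ w)⁻¹) • c₃) := hc₂.sub_right (hc₃.smul_right _)
    have h5 : (c₂ - (c₂ w * (c₃ w)⁻¹) • c₃) w = 0 := by
      simp only [LinearMap.sub_apply, LinearMap.smul_apply, smul_eq_mul]
      field_simp
      ring
    have h6 := hex _ h4 h5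
    simp only [LinearMap.sub_apply, LinearMap.smul_apply, smul_eq_mul, h0, zero_sub, neg_eq_zero,
      mul_eq_zero, inv_eq_zero] at h6
    rw [hc₂w] at h6
    tauto
  exact mem_UU_of_main (hw''.2.trans ha.2.symm) e2 hw''a hwa' hc₂ hc₂w'' hc₂w' hx hx''

/-- The common part. -/
def RR (H : Subgroup (V ≃ₗ[ZMod p] V)) (d : ℕ) (a : V) : Submodule (ZMod p) V :=
  UU H a ⊓ ⨅ (w : V), ⨅ (_ : Sd H d w ∧ w ∉ UU H a), UU H w

theorem mem_RR {x : V} : x ∈ RR H d a ↔ x ∈ UU H a ∧ ∀ w, Sd H d w → w ∉ UU H a → x ∈ UU H w := by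
  simp [RR, Submodule.mem_inf, Submodule.mem_iInf]

theorem RR_le : RR H d a ≤ UU H a := inf_le_left

theorem mem_RR_of (hF : FlagFree H) (hd2 : 2 ≤ d) (ha : Sd H d a) (hw : Sd H d w)
    (hwa : w ∉ UU H a) {x : V} : x ∈ RR H d a ↔ x ∈ UU H a ∧ x ∈ UU H w := by
  constructor
  · intro h
    rw [mem_RR] at h
    exact ⟨h.1, h.2 w hw hwa⟩
  · rintro ⟨h1, h2⟩
    rw [mem_RR]
    exact ⟨h1, fun w' hw' hwa' => mem_UU_of_R hF hd2 ha hw hw' hwa hwa' h1 h2⟩

theorem exists_form (hd2 : 2 ≤ d) (ha : Sd H d a) : ∃ c, Lp H a c ∧ c ≠ 0 := by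
  obtain ⟨c, hc, hc0, _⟩ := exists_ne_zero_kill (S := BB H a) (by rw [ha.2]; exact hd2) a
  exact ⟨c, hc, hc0⟩

theorem exists_adj (hF : FlagFree H) (hd2 : 2 ≤ d) (ha : Sd H d a) :
    ∃ w, Sd H d w ∧ w ∉ UU H a := by
  obtain ⟨c, hc, hc0⟩ := exists_form hd2 ha
  obtain ⟨w, hw, hcw⟩ := exists_Sd_apply_ne hF ha hc hc0
  exact ⟨w, hw, not_mem_UU.2 ⟨c, hc, hcw⟩⟩

theorem self_not_mem_RR (hF : FlagFree H) (hd2 : 2 ≤ d) (ha : Sd H d a) : a ∉ RR H d a := by
  obtain ⟨w, hw, hwa⟩ := exists_adj hF hd2 ha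
  intro h
  exact not_mem_UU_symm' ha hw hwa ((mem_RR_of hF hd2 ha hw hwa).1 h).2

theorem RR_eq_of_adj (hF : FlagFree H) (hd2 : 2 ≤ d) (ha : Sd H d a) (hw : Sd H d w)
    (hwa : w ∉ UU H a) : RR H d a = RR H d w := by
  ext x
  rw [mem_RR_of hF hd2 ha hw hwa, mem_RR_of hF hd2 hw ha (not_mem_UU_symm' ha hw hwa), and_comm]

theorem exists_sub_mem_RR (hF : FlagFree H) (hd2 : 2 ≤ d) (ha : Sd H d a) {x : V}
    (hx : x ∈ UU H a) : ∃ μ : ZMod p, x - μ • a ∈ RR H d a := by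
  obtain ⟨w, hw, hwa⟩ := exists_adj hF hd2 ha
  obtain ⟨μ, hμ⟩ := exists_sub_smul_mem (not_mem_UU_symm' ha hw hwa) hwa hx
  refine ⟨μ, (mem_RR_of hF hd2 ha hw hwa).2 ⟨?_, hμ⟩⟩
  exact Submodule.sub_mem _ hx (Submodule.smul_mem _ _ self_mem_UU)

theorem mem_RR_map (hF : FlagFree H) (hd2 : 2 ≤ d) (ha : Sd H d a) {g : V ≃ₗ[ZMod p] V}
    (hg : g ∈ H) {x : V} : g x ∈ RR H d (g a) ↔ x ∈ RR H d a := by
  obtain ⟨w, hw, hwa⟩ := exists_adj hF hd2 ha
  have hwa' : g w ∉ UU H (g a) := fun h => hwa ((mem_UU_map hg).1 h)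
  rw [mem_RR_of hF hd2 (ha.map hg) (hw.map hg) hwa', mem_RR_of hF hd2 ha hw hwa, mem_UU_map hg,
    mem_UU_map hg]

theorem RR_smul {κ : ZMod p} (hκ : κ ≠ 0) : RR H d (κ • a) = RR H d a := by
  ext x
  simp only [mem_RR, UU_smul hκ]

/-- (P2') -/
theorem eq_zero_or_of_mem_all (hF : FlagFree H) {z : V} (hz : ∀ a₁, Sd H d a₁ → z ∈ UU H a₁)
    (ha : Sd H d a) (hb : Lp H a b) (hzb : Lp H z b) : z = 0 ∨ b = 0 := by
  let A : Submodule (ZMod p) V := ⨅ (a₁ : V), ⨅ (_ : Sd H d a₁), UU H a₁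
  have hmem : ∀ x, x ∈ A ↔ ∀ a₁, Sd H d a₁ → x ∈ UU H a₁ := by
    intro x; simp [A, Submodule.mem_iInf]
  have hinv : ∀ h ∈ H, ∀ x ∈ A, h x ∈ A := by
    intro g hg x hx
    rw [hmem] at hx ⊢
    intro a₁ ha₁
    have h2 := hx _ (ha₁.map (H.inv_mem hg))
    have h3 : g ((g⁻¹ : V ≃ₗ[ZMod p] V) a₁) = a₁ := by
      show g (g.symm a₁) = a₁
      simp
    have := (mem_UU_map (a := (g⁻¹ : V ≃ₗ[ZMod p] V) a₁) hg (x := x)).2 h2
    rwa [h3] at this
  have h11 : ∀ v, LinearEquiv.transvection hzb.1 v - v ∈ A := by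
    intro v
    rw [tv_apply, add_sub_cancel_left]
    exact Submodule.smul_mem _ _ ((hmem z).2 hz)
  have h12 : ∀ v ∈ A, LinearEquiv.transvection hzb.1 v = v := by
    intro v hv
    rw [tv_apply, mem_UU.1 ((hmem v).1 hv a ha) b hb, zero_smul, add_zero]
  have h1 := hF.two A hinv hzb.2 h11 h12
  exact eq_zero_or_of_tv_eq_one hzb.1 h1

/-- (P2) -/
theorem exists_eq_smul_of_mem_UU (hF : FlagFree H) (hd2 : 2 ≤ d) (ha : Sd H d a)
    (ha' : Sd H d a') (hR : RR H d a = RR H d a') (h : a' ∈ UU H a) : ∃ l : ZMod p, a' = l • a := by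
  obtain ⟨μ, hμ⟩ := exists_sub_mem_RR hF hd2 ha h
  refine ⟨μ, ?_⟩
  by_contra hne
  have hz0 : a' - μ • a ≠ 0 := sub_ne_zero.2 hne
  have hμ0 : μ ≠ 0 := by
    intro h0
    rw [h0, zero_smul, sub_zero, hR] at hμ
    exact self_not_mem_RR hF hd2 ha' hμ
  -- `z` lies in all `UU`
  have hall : ∀ a₁, Sd H d a₁ → a' - μ • a ∈ UU H a₁ := by
    intro a₁ ha₁
    by_cases h1 : a ∈ UU H a₁
    · by_cases h2 : a' ∈ UU H a₁
      · exact Submodule.sub_mem _ h2 (Submodule.smul_mem _ _ h1)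
      · have h3 := RR_eq_of_adj hF hd2 ha₁ ha' h2
        rw [hR, ← h3] at hμ
        exact RR_le hμ
    · have h3 := RR_eq_of_adj hF hd2 ha₁ ha h1
      rw [← h3] at hμ
      exact RR_le hμ
  -- `UU a' = UU a`
  have hUU : UU H a = UU H a' := by
    ext x
    constructor
    · intro hx
      obtain ⟨ν, hν⟩ := exists_sub_mem_RR hF hd2 ha hx
      rw [hR] at hν
      have h4 : x - ν • a ∈ UU H a' := RR_le hν
      have h5 : a ∈ UU H a' := by
        have h6 : a' - μ • a ∈ UU H a' := by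
          have := hμ
          rw [hR] at this
          exact RR_le this
        have h7 := Submodule.sub_mem _ (self_mem_UU (H := H) (a := a')) h6
        have h8 : a' - (a' - μ • a) = μ • a := by abel
        rw [h8] at h7
        have := Submodule.smul_mem _ μ⁻¹ h7
        rwa [smul_smul, inv_mul_cancel₀ hμ0, one_smul] at this
      have := Submodule.add_mem _ h4 (Submodule.smul_mem _ ν h5)
      simpa using this
    · intro hx
      obtain ⟨ν, hν⟩ := exists_sub_mem_RR hF hd2 ha' hx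
      rw [← hR] at hν
      have h4 : x - ν • a' ∈ UU H a := RR_le hν
      have := Submodule.add_mem _ h4 (Submodule.smul_mem _ ν h)
      simpa using this
  have hBB := BB_eq_of_UU_eq hUU
  obtain ⟨b₀, hb₀, hb₀0⟩ := exists_form hd2 ha
  have hb₀' : Lp H a' b₀ := by
    have : b₀ ∈ BB H a' := by rw [← hBB]; exact hb₀
    exact this
  have hz : Lp H (a' - μ • a) b₀ := hb₀'.sub_left (hb₀.smul_left μ)
  rcases eq_zero_or_of_mem_all hF hall ha hb₀ hz with h1 | h1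
  · exact hz0 h1
  · exact hb₀0 h1

/-- The class of `a₀`. -/
def Cl (H : Subgroup (V ≃ₗ[ZMod p] V)) (d : ℕ) (a₀ a : V) : Prop :=
  Sd H d a ∧ RR H d a = RR H d a₀

variable {a₀ : V}

theorem Cl.smul {κ : ZMod p} (hκ : κ ≠ 0) (h : Cl H d a₀ a) : Cl H d a₀ (κ • a) :=
  ⟨h.1.smul hκ, by rw [RR_smul hκ]; exact h.2⟩

theorem RR_map_of_fix (hF : FlagFree H) (hd2 : 2 ≤ d) (ha : Sd H d a) {g : V ≃ₗ[ZMod p] V}
    (hg : g ∈ H) (hfix : ∀ x, (g x ∈ RR H d a ↔ x ∈ RR H d a)) : RR H d (g a) = RR H d a := by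
  ext x
  have h1 := mem_RR_map hF hd2 ha hg (x := g.symm x)
  rw [LinearEquiv.apply_symm_apply] at h1
  rw [h1, ← hfix (g.symm x), LinearEquiv.apply_symm_apply]

theorem Cl.add_or_zero (hF : FlagFree H) (hd2 : 2 ≤ d) (h1 : Cl H d a₀ a) (h2 : Cl H d a₀ a') :
    a + a' = 0 ∨ Cl H d a₀ (a + a') := by
  by_cases hm : a' ∈ UU H a
  · obtain ⟨l, hl⟩ := exists_eq_smul_of_mem_UU hF hd2 h1.1 h2.1 (h1.2.trans h2.2.symm) hm
    by_cases hl0 : 1 + l = 0
    · left
      rw [hl, ← one_smul (ZMod p) a, smul_smul, mul_one, ← add_smul, hl0, zero_smul]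
    · right
      have := h1.smul hl0
      rw [add_smul, one_smul, ← hl] at this
      exact this
  · have ha := not_mem_UU_symm' h1.1 h2.1 hm
    obtain ⟨b', hb', hb'a⟩ := not_mem_UU.1 ha
    have hc : Lp H a' ((b' a)⁻¹ • b') := hb'.smul_right _
    have hca : ((b' a)⁻¹ • b') a = 1 := by
      simp [inv_mul_cancel₀ hb'a]
    have hga : LinearEquiv.transvection hc.1 a = a + a' := by
      rw [tv_apply, hca, one_smul]
    right
    have hfixZ : ∀ x ∈ RR H d a', LinearEquiv.transvection hc.1 x = x := by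
      intro x hx
      rw [tv_apply, mem_UU.1 (RR_le hx) _ hc, zero_smul, add_zero]
    have hS := h1.1.map (g := LinearEquiv.transvection hc.1) hc.2
    rw [hga] at hS
    refine ⟨hS, ?_⟩
    have hR : RR H d a = RR H d a' := h1.2.trans h2.2.symm
    have := RR_map_of_fix hF hd2 h1.1 (g := LinearEquiv.transvection hc.1) hc.2 ?_
    · rw [hga] at this
      rw [this, h1.2]
    · intro x
      rw [hR]
      constructor
      · intro hx
        have h3 := hfixZ _ hx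
        have h4 : x = LinearEquiv.transvection hc.1 x := (LinearEquiv.injective _ h3).symm
        rwa [h4]
      · intro hx
        rwa [hfixZ x hx]

/-- The subspace attached to the class of `a₀`. -/
theorem exists_YY (hF : FlagFree H) (hd2 : 2 ≤ d) :
    ∃ Y : Submodule (ZMod p) V, ∀ y, y ∈ Y ↔ y = 0 ∨ Cl H d a₀ y := by
  refine ⟨{ carrier := {y | y = 0 ∨ Cl H d a₀ y}
            add_mem' := ?_
            zero_mem' := Or.inl rfl
            smul_mem' := ?_ }, fun y => Iff.rfl⟩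
  · rintro x y (rfl | hx) (rfl | hy)
    · left; simp
    · right; simpa using hy
    · right; simpa using hx
    · exact Cl.add_or_zero hF hd2 hx hy
  · rintro κ x (rfl | hx)
    · left; simp
    · by_cases hκ : κ = 0
      · left; simp [hκ]
      · right; exact hx.smul hκ

theorem highRank_struct (hF : FlagFree H) (hconn : Conn H) (hd2 : 2 ≤ d) (ha₀ : Sd H d a₀) :
    ∃ Y Z : Submodule (ZMod p) V, Struct H Y Z ∧
      ∀ a ∈ Y, ∀ b : Dual (ZMod p) V, (∀ z ∈ Z, b z = 0) → b a = 0 → Lp H a b := by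
  obtain ⟨Y, hY⟩ := exists_YY (a₀ := a₀) hF hd2
  let Z := RR H d a₀
  have hCa₀ : Cl H d a₀ a₀ := ⟨ha₀, rfl⟩
  have ha₀Y : a₀ ∈ Y := (hY _).2 (Or.inr hCa₀)
  have hdisj : ∀ y ∈ Y, y ∈ Z → y = 0 := by
    intro y hy hyZ
    rcases (hY y).1 hy with h | h
    · exact h
    · exfalso
      have : y ∈ RR H d y := by rw [h.2]; exact hyZ
      exact self_not_mem_RR hF hd2 h.1 this
  have hadj : ∀ w, Sd H d w → w ∉ UU H a₀ → Cl H d a₀ w := fun w hw hwa =>
    ⟨hw, (RR_eq_of_adj hF hd2 ha₀ hw hwa).symm⟩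
  have hsup : Y ⊔ Z = ⊤ := by
    by_contra hne
    obtain ⟨b₀, hb₀0, hb₀⟩ := Submodule.exists_le_ker_of_lt_top _ (lt_top_iff_ne_top.2 hne)
    have hb₀Y : ∀ y ∈ Y, b₀ y = 0 := fun y hy => hb₀ (Submodule.mem_sup_left hy)
    have hb₀Z : ∀ z ∈ Z, b₀ z = 0 := fun z hz => hb₀ (Submodule.mem_sup_right hz)
    have hL : Lp H a₀ b₀ := by
      rw [mem_BB_iff]
      intro x hx
      obtain ⟨μ, hμ⟩ := exists_sub_mem_RR hF hd2 ha₀ hx
      have h1 := hb₀Z _ hμ
      have h2 := hb₀Y _ ha₀Y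
      rw [map_sub, map_smul, h2, smul_zero, sub_zero] at h1
      exact h1
    obtain ⟨w, hw, hbw⟩ := exists_Sd_apply_ne hF ha₀ hL hb₀0
    have hwa : w ∉ UU H a₀ := not_mem_UU.2 ⟨b₀, hL, hbw⟩
    exact hbw (hb₀Y w ((hY w).2 (Or.inr (hadj w hw hwa))))
  have hSL : ∀ a ∈ Y, ∀ b : Dual (ZMod p) V, (∀ z ∈ Z, b z = 0) → b a = 0 → Lp H a b := by
    intro a ha b hbZ hba
    rcases (hY a).1 ha with rfl | h
    · exact Lp_zero_left b
    · rw [mem_BB_iff]
      intro x hx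
      obtain ⟨μ, hμ⟩ := exists_sub_mem_RR hF hd2 h.1 hx
      rw [h.2] at hμ
      have h1 := hbZ _ hμ
      rw [map_sub, map_smul, hba, smul_zero, sub_zero] at h1
      exact h1
  -- dichotomy for pairs
  have hdich : ∀ a' b', a' ≠ 0 → b' ≠ 0 → Lp H a' b' →
      (a' ∈ Y ∧ ∀ z ∈ Z, b' z = 0) ∨ (a' ∈ Z ∧ ∀ y ∈ Y, b' y = 0) := by
    intro a' b' ha' hb' hL
    -- a fixed point in the class
    obtain ⟨y, hyC, hby⟩ : ∃ y, Cl H d a₀ y ∧ b' y = 0 := by
      by_cases h0 : b' a₀ = 0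
      · exact ⟨a₀, hCa₀, h0⟩
      · obtain ⟨w, hw, hwa⟩ := exists_adj hF hd2 ha₀
        have hwC := hadj w hw hwa
        have hwY := (hY w).2 (Or.inr hwC)
        have hmem : w - (b' w * (b' a₀)⁻¹) • a₀ ∈ Y :=
          Submodule.sub_mem _ hwY (Submodule.smul_mem _ _ ha₀Y)
        have hne : w - (b' w * (b' a₀)⁻¹) • a₀ ≠ 0 := by
          intro h
          apply hwa
          rw [sub_eq_zero] at h
          rw [h]
          exact Submodule.smul_mem _ _ self_mem_UU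
        rcases (hY _).1 hmem with h | h
        · exact absurd h hne
        · refine ⟨_, h, ?_⟩
          simp only [map_sub, map_smul, smul_eq_mul]
          field_simp
          ring
    set g := LinearEquiv.transvection hL.1 with hg
    have hgH : g ∈ H := hL.2
    have hgy : g y = y := by rw [hg, tv_apply, hby, zero_smul, add_zero]
    have hgZ : ∀ x, g x ∈ Z ↔ x ∈ Z := by
      intro x
      have := mem_RR_map hF hd2 hyC.1 hgH (x := x)
      rw [hgy, hyC.2] at this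
      exact this
    have hgC : ∀ y', Cl H d a₀ y' → Cl H d a₀ (g y') := by
      intro y' hy'
      refine ⟨hy'.1.map hgH, ?_⟩
      have h1 := RR_map_of_fix hF hd2 hy'.1 hgH (by rw [hy'.2]; exact hgZ)
      rw [h1, hy'.2]
    have h1 : ∀ x ∈ Z, b' x = 0 ∨ a' ∈ Z := by
      intro x hx
      have h2 := Submodule.sub_mem _ ((hgZ x).2 hx) hx
      rw [hg, tv_apply, add_sub_cancel_left] at h2
      by_cases h3 : b' x = 0
      · exact Or.inl h3
      · right
        have := Submodule.smul_mem _ (b' x)⁻¹ h2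
        rwa [smul_smul, inv_mul_cancel₀ h3, one_smul] at this
    have h2 : ∀ x ∈ Y, b' x = 0 ∨ a' ∈ Y := by
      intro x hx
      have hgx : g x ∈ Y := by
        rcases (hY x).1 hx with rfl | h
        · simp
        · exact (hY _).2 (Or.inr (hgC x h))
      have h2 := Submodule.sub_mem _ hgx hx
      rw [hg, tv_apply, add_sub_cancel_left] at h2
      by_cases h3 : b' x = 0
      · exact Or.inl h3
      · right
        have := Submodule.smul_mem _ (b' x)⁻¹ h2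
        rwa [smul_smul, inv_mul_cancel₀ h3, one_smul] at this
    by_cases hZ : a' ∈ Z
    · right
      refine ⟨hZ, fun x hx => ?_⟩
      rcases h2 x hx with h | h
      · exact h
      · exact absurd (hdisj a' h hZ) ha'
    · left
      have hkill : ∀ z ∈ Z, b' z = 0 := fun z hz => (h1 z hz).resolve_right hZ
      refine ⟨?_, hkill⟩
      by_contra hnY
      have hkY : ∀ y ∈ Y, b' y = 0 := fun x hx => (h2 x hx).resolve_right hnY
      apply hb'
      ext v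
      have hv : v ∈ Y ⊔ Z := by rw [hsup]; trivial
      obtain ⟨y', hy', z', hz', rfl⟩ := Submodule.mem_sup.1 hv
      simp [hkY y' hy', hkill z' hz']
  obtain ⟨c₀, hc₀, hc₀0⟩ := exists_form hd2 ha₀
  have hfull := hconn (fun a b => a ≠ 0 ∧ b ≠ 0 ∧ Lp H a b ∧ a ∈ Y ∧ ∀ z ∈ Z, b z = 0)
    (fun a b h => ⟨h.1, h.2.1, h.2.2.1⟩)
    ⟨a₀, c₀, ha₀.1, hc₀0, hc₀, ha₀Y, fun z hz => mem_UU.1 (RR_le hz) _ hc₀⟩
    (by
      rintro a b a' b' ⟨_, _, _, haY, hbZ⟩ ha' hb' hL hn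
      rcases hdich a' b' ha' hb' hL with h | h
      · exact absurd ⟨ha', hb', hL, h.1, h.2⟩ hn
      · exact ⟨hbZ a' h.1, h.2 a haY⟩)
  refine ⟨Y, Z, ⟨?_, ?_, ?_, ?_⟩, hSL⟩
  · rw [isCompl_iff]
    refine ⟨?_, ?_⟩
    · rw [disjoint_iff, eq_bot_iff]
      rintro x ⟨hx1, hx2⟩
      exact hdisj x hx1 hx2
    · rw [codisjoint_iff]; exact hsup
  · intro a b ha hb hL
    obtain ⟨_, _, _, h1, h2⟩ := hfull a b ha hb hL
    exact ⟨h1, h2⟩
  · intro y hy hy0
    rcases (hY y).1 hy with h | h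
    · exact absurd h hy0
    · obtain ⟨c, hc, hc0⟩ := exists_form hd2 h.1
      exact ⟨c, hc0, hc⟩
  · intro z hz
    have hv : z ∈ Y ⊔ Z := by rw [hsup]; trivial
    obtain ⟨y, hy, z', hz', rfl⟩ := Submodule.mem_sup.1 hv
    rcases (hY y).1 hy with rfl | h
    · simpa using hz'
    · exfalso
      obtain ⟨w, hw, hwy⟩ := exists_adj hF hd2 h.1
      have hyw := not_mem_UU_symm' h.1 hw hwy
      obtain ⟨b, hb, hby⟩ := not_mem_UU.1 hyw
      have hb0 : b ≠ 0 := by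
        rintro rfl
        simp at hby
      have h1 := hz w b hw.1 hb0 hb
      have h2 : RR H d w = Z := by
        rw [← RR_eq_of_adj hF hd2 h.1 hw hwy]; exact h.2
      have h3 : b z' = 0 := by
        have : z' ∈ RR H d w := by rw [h2]; exact hz'
        exact mem_UU.1 (RR_le this) _ hb
      rw [map_add, h3, add_zero] at h1
      exact hby h1

end FD

end Cfsg.Agent.Lib.McL.HighRank
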