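/-
McLaughlin's theorem, the case where every point has a single form up to scalars: final statement.
-/
import Mathlib
import Cfsg.Agent.Lib.McL.Form2
import Cfsg.Agent.Lib.McL.HighRank

set_option autoImplicit false

namespace Cfsg.Agent.Lib.McL.Form3

open Module Cfsg.Agent.Lib.McL.Core Cfsg.Agent.Lib.McL.Flag Cfsg.Agent.Lib.McL.Form
  Cfsg.Agent.Lib.McL.Form2 Cfsg.Agent.Lib.McL.HighRank

variable {p : ℕ} [Fact p.Prime] {V : Type*} [AddCommGroup V] [Module (ZMod p) V]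
  {H : Subgroup (V ≃ₗ[ZMod p] V)} {a₀ : V} {f₀ : Dual (ZMod p) V}

theorem hone_of_finrank [Module.Finite (ZMod p) V] {a : V}
    (hle : Module.finrank (ZMod p) (BB H a) ≤ 1) (b b' : Dual (ZMod p) V)
    (hb : Lp H a b) (hb' : Lp H a b') (hb'0 : b' ≠ 0) : ∃ l : ZMod p, b = l • b' := by
  obtain ⟨v, hv⟩ := finrank_le_one_iff.1 hle
  obtain ⟨c, hc⟩ := hv ⟨b, hb⟩
  obtain ⟨c', hc'⟩ := hv ⟨b', hb'⟩
  have h1 : c • v.1 = b := congrArg Subtype.val hc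
  have h2 : c' • v.1 = b' := congrArg Subtype.val hc'
  have hc'0 : c' ≠ 0 := by
    rintro rfl
    apply hb'0
    rw [← h2, zero_smul]
  refine ⟨c * c'⁻¹, ?_⟩
  rw [← h1, ← h2, smul_smul]
  congr 1
  field_simp

theorem lowRank_struct [Module.Finite (ZMod p) V] (hp : Odd p) (hF : FlagFree H) (hconn : Conn H)
    (hle : ∀ a, a ≠ 0 → Module.finrank (ZMod p) (BB H a) ≤ 1) (ha₀ : a₀ ≠ 0) (hf₀ : f₀ ≠ 0)
    (h₀ : Lp H a₀ f₀) :
    ∃ Y Z : Submodule (ZMod p) V, Struct H Y Z ∧ ∃ Φ : V →ₗ[ZMod p] Dual (ZMod p) V,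
      (∀ y ∈ Y, ∀ z ∈ Z, Φ y z = 0) ∧ (∀ y ∈ Y, Lp H y (Φ y)) ∧
      (∀ a b, a ≠ 0 → b ≠ 0 → Lp H a b → ∃ l : ZMod p, b = l • Φ a) ∧
      (∀ y ∈ Y, Φ y y = 0) ∧ (∀ y ∈ Y, (∀ y' ∈ Y, Φ y' y = 0) → y = 0) := by
  have C : Ctx H a₀ f₀ := ⟨fun a ha b b' hb hb' h0 => hone_of_finrank (hle a ha) b b' hb hb' h0,
    h₀, ha₀, hf₀⟩
  have hS : Sd H 1 a₀ := by
    refine ⟨ha₀, le_antisymm (hle a₀ ha₀) ?_⟩
    rw [Submodule.one_le_finrank_iff]
    intro h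
    have : f₀ ∈ BB H a₀ := h₀
    rw [h] at this
    exact hf₀ this
  obtain ⟨w, hw, hfw⟩ := exists_Sd_apply_ne hF hS h₀ hf₀
  obtain ⟨b, hb, hb0⟩ : ∃ b, Lp H w b ∧ b ≠ 0 := by
    have hne : BB H w ≠ ⊥ := by
      intro h
      have h2 := hw.2
      rw [h] at h2
      simp at h2
    obtain ⟨b, hb, hb0⟩ := Submodule.exists_mem_ne_zero_of_ne_bot hne
    exact ⟨b, hb, hb0⟩
  obtain ⟨f, hf⟩ := exists_IsF C hb0 hb hfw
  have hI := hf.smul (inv_ne_zero hfw)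
  have h1 : f₀ ((f₀ w)⁻¹ • w) = 1 := by simp [inv_mul_cancel₀ hfw]
  obtain ⟨Y, Φ, hY, hΦ⟩ := exists_Phi hp C hI h1
  have D : PhiCtx H a₀ f₀ _ _ Y Φ := ⟨C, hI, h1, hY, hΦ, hp⟩
  let Z := ZZ Y Φ
  have hinter : ∀ z ∈ Y, z ∈ Z → z = 0 := fun z hz hz' => D.inter_eq hF hconn hz hz'
  -- `Y ⊔ Z = ⊤`
  let T : ↥Y →ₗ[ZMod p] Dual (ZMod p) ↥Y := Y.subtype.dualMap ∘ₗ Φ ∘ₗ Y.subtype
  have hT : ∀ y y' : ↥Y, T y y' = Φ y.1 y'.1 := fun _ _ => rfl
  have hTinj : Function.Injective T := by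
    rw [← LinearMap.ker_eq_bot, LinearMap.ker_eq_bot']
    intro y hy
    apply Subtype.ext
    apply hinter y.1 y.2
    rw [mem_ZZ]
    intro y' hy'
    have := LinearMap.congr_fun hy ⟨y', hy'⟩
    rw [hT] at this
    rw [D.anti hy' y.2, ← neg_eq_zero, neg_neg]
    exact this
  have hTsurj : Function.Surjective T :=
    (LinearMap.injective_iff_surjective_of_finrank_eq_finrank
      (Subspace.dual_finrank_eq).symm).1 hTinj
  have hsup : Y ⊔ Z = ⊤ := by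
    rw [eq_top_iff]
    intro v _
    obtain ⟨y_v, hy_v⟩ := hTsurj ((Φ.flip v) ∘ₗ Y.subtype)
    have hvZ : v + y_v.1 ∈ Z := by
      rw [mem_ZZ]
      intro y' hy'
      have h2 := LinearMap.congr_fun hy_v ⟨y', hy'⟩
      rw [hT] at h2
      simp only [LinearMap.comp_apply, LinearMap.flip_apply, Submodule.subtype_apply] at h2
      rw [map_add, ← h2, D.anti hy' y_v.2]
      simp
    have h3 : v = (- y_v.1) + (v + y_v.1) := by abel
    rw [h3]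
    exact Submodule.add_mem_sup (Y.neg_mem y_v.2) hvZ
  refine ⟨Y, Z, ⟨?_, ?_, ?_, ?_⟩, Φ, ?_, ?_, ?_, ?_, ?_⟩
  · rw [isCompl_iff]
    refine ⟨?_, ?_⟩
    · rw [disjoint_iff, eq_bot_iff]
      rintro x ⟨hx1, hx2⟩
      exact hinter x hx1 hx2
    · rw [codisjoint_iff]; exact hsup
  · intro a b ha hb hL
    obtain ⟨h2, _, l, rfl⟩ := D.pair hconn ha hb hL
    refine ⟨h2, fun z hz => ?_⟩
    simp [mem_ZZ.1 hz a h2]
  · intro y hy hy0
    have hnZ : y ∉ Z := fun h => hy0 (hinter y hy h)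
    have : Good H a₀ f₀ Y y := by
      rw [mem_ZZ] at hnZ
      push Not at hnZ
      obtain ⟨y', hy', hne⟩ := hnZ
      obtain ⟨w₁, f₁, c, h2, _, h4⟩ := D.decomp hy'
      rw [h4] at hne
      by_cases h5 : f₁ y = 0
      · refine ⟨hy, _, _, hI, ?_⟩
        intro h6
        apply hne
        simp [h5, h6]
      · exact ⟨hy, _, _, h2, h5⟩
    have hA := D.claimA this
    exact ⟨_, hA.2, hA.1⟩
  · intro z hz
    exact (D.mem_ZZ_iff hconn).2 hz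
  · intro y hy z hz
    exact mem_ZZ.1 hz y hy
  · intro y hy
    by_cases hy0 : y = 0
    · subst hy0
      exact Lp_zero_left _
    · have hnZ : y ∉ Z := fun h => hy0 (hinter y hy h)
      have : Good H a₀ f₀ Y y := by
        rw [mem_ZZ] at hnZ
        push Not at hnZ
        obtain ⟨y', hy', hne⟩ := hnZ
        obtain ⟨w₁, f₁, c, h2, _, h4⟩ := D.decomp hy'
        rw [h4] at hne
        by_cases h5 : f₁ y = 0
        · refine ⟨hy, _, _, hI, ?_⟩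
          intro h6
          apply hne
          simp [h5, h6]
        · exact ⟨hy, _, _, h2, h5⟩
      exact (D.claimA this).1
  · intro a b ha hb hL
    obtain ⟨_, _, l, rfl⟩ := D.pair hconn ha hb hL
    exact ⟨l, rfl⟩
  · intro y hy
    exact D.alt hy
  · intro y hy h
    exact hinter y hy (mem_ZZ.2 h)

end Cfsg.Agent.Lib.McL.Form3
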