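/-
McLaughlin's theorem: the action on the piece `Y`.
-/
import Mathlib
import Cfsg.Agent.Lib.McL.Assemble
import Cfsg.Agent.Lib.McL.Flag
import Cfsg.Agent.Lib.Classical.Alt
import Cfsg.Agent.Lib.Classical.Transvections

set_option autoImplicit false

namespace Cfsg.Agent.Lib.McL.Restrict

open Module Cfsg.Agent.Lib.McL.Core Cfsg.Agent.Lib.McL.Flag Cfsg.Agent.Lib.McL.Assemble

variable {p : ℕ} [Fact p.Prime] {V : Type*} [AddCommGroup V] [Module (ZMod p) V]

/-- Restriction to an invariant subspace. -/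
def resHom (K : Subgroup (V ≃ₗ[ZMod p] V)) (Y : Submodule (ZMod p) V)
    (hK : ∀ k ∈ K, ∀ y ∈ Y, k y ∈ Y) : ↥K →* (↥Y ≃ₗ[ZMod p] ↥Y) where
  toFun k := LinearEquiv.ofLinearMap
    ((k.1 : V →ₗ[ZMod p] V).restrict (hK k.1 k.2))
    (((k.1⁻¹ : V ≃ₗ[ZMod p] V) : V →ₗ[ZMod p] V).restrict (hK _ (K.inv_mem k.2)))
    (by
      ext y
      show k.1 (k.1.symm y.1) = y.1
      simp)
    (by
      ext y
      show k.1.symm (k.1 y.1) = y.1
      simp)
  map_one' := by
    ext y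
    rfl
  map_mul' a b := by
    ext y
    rfl

theorem resHom_apply (K : Subgroup (V ≃ₗ[ZMod p] V)) (Y : Submodule (ZMod p) V)
    (hK : ∀ k ∈ K, ∀ y ∈ Y, k y ∈ Y) (k : ↥K) (y : ↥Y) :
    ((resHom K Y hK k y : ↥Y) : V) = k.1 y.1 := rfl

/-- `f` agrees with `k` on `Y`. -/
def Ag {Y : Submodule (ZMod p) V} (f : ↥Y ≃ₗ[ZMod p] ↥Y) (k : V ≃ₗ[ZMod p] V) : Prop :=
  ∀ y : ↥Y, ((f y : ↥Y) : V) = k y.1

theorem Ag.one {Y : Submodule (ZMod p) V} : Ag (1 : ↥Y ≃ₗ[ZMod p] ↥Y) 1 := fun _ => rfl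

theorem Ag.mul {Y : Submodule (ZMod p) V} {f f' : ↥Y ≃ₗ[ZMod p] ↥Y} {k k' : V ≃ₗ[ZMod p] V}
    (h : Ag f k) (h' : Ag f' k') : Ag (f * f') (k * k') := by
  intro y
  show ((f (f' y) : ↥Y) : V) = k (k' y.1)
  rw [h, h']

theorem Ag.inv {Y : Submodule (ZMod p) V} {f : ↥Y ≃ₗ[ZMod p] ↥Y} {k : V ≃ₗ[ZMod p] V}
    (h : Ag f k) : Ag f⁻¹ k⁻¹ := by
  intro y
  show ((f.symm y : ↥Y) : V) = k.symm y.1
  rw [LinearEquiv.eq_symm_apply, ← h]
  simp

theorem range_eq (K : Subgroup (V ≃ₗ[ZMod p] V)) (Y : Submodule (ZMod p) V)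
    (hK : ∀ k ∈ K, ∀ y ∈ Y, k y ∈ Y) (gens : Set (V ≃ₗ[ZMod p] V))
    (hgens : K = Subgroup.closure gens) (T : Subgroup (↥Y ≃ₗ[ZMod p] ↥Y))
    (X : Set (↥Y ≃ₗ[ZMod p] ↥Y)) (hX : T = Subgroup.closure X)
    (h1 : ∀ g ∈ gens, ∃ f ∈ T, Ag f g) (h2 : ∀ f ∈ X, ∃ k ∈ K, Ag f k) :
    (resHom K Y hK).range = T := by
  apply le_antisymm
  · rintro _ ⟨k, rfl⟩
    have h3 : ∀ k ∈ K, ∃ f ∈ T, Ag f k := by
      intro k hk
      rw [hgens] at hk
      induction hk using Subgroup.closure_induction with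
      | mem x hx => exact h1 x hx
      | one => exact ⟨1, T.one_mem, Ag.one⟩
      | mul x y _ _ hx hy =>
        obtain ⟨f, hf, hf'⟩ := hx
        obtain ⟨f', hg, hg'⟩ := hy
        exact ⟨f * f', T.mul_mem hf hg, hf'.mul hg'⟩
      | inv x _ hx =>
        obtain ⟨f, hf, hf'⟩ := hx
        exact ⟨f⁻¹, T.inv_mem hf, hf'.inv⟩
    obtain ⟨f, hf, hf'⟩ := h3 k.1 k.2
    have : resHom K Y hK k = f := by
      ext y
      rw [resHom_apply, hf' y]
    rw [this]
    exact hf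
  · intro f hf
    have h3 : ∃ k ∈ K, Ag f k := by
      rw [hX] at hf
      induction hf using Subgroup.closure_induction with
      | mem x hx => exact h2 x hx
      | one => exact ⟨1, K.one_mem, Ag.one⟩
      | mul x y _ _ hx hy =>
        obtain ⟨f, hf, hf'⟩ := hx
        obtain ⟨f', hg, hg'⟩ := hy
        exact ⟨f * f', K.mul_mem hf hg, hf'.mul hg'⟩
      | inv x _ hx =>
        obtain ⟨f, hf, hf'⟩ := hx
        exact ⟨f⁻¹, K.inv_mem hf, hf'.inv⟩
    obtain ⟨k, hk, hk'⟩ := h3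
    refine ⟨⟨k, hk⟩, ?_⟩
    ext y
    rw [resHom_apply, hk' y]

section SL

variable {W : Type*} [AddCommGroup W] [Module (ZMod p) W] [Module.Finite (ZMod p) W]

theorem det_of_mem_closure {f : W ≃ₗ[ZMod p] W}
    (hf : f ∈ Subgroup.closure (LinearEquiv.transvections (ZMod p) W)) :
    LinearMap.det (f : W →ₗ[ZMod p] W) = 1 := by
  have h1 : Subgroup.closure (LinearEquiv.transvections (ZMod p) W) ≤
      (LinearEquiv.det (R := ZMod p) (M := W)).ker := by
    rw [Subgroup.closure_le]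
    rintro _ ⟨b, v, hv, rfl⟩
    rw [SetLike.mem_coe, MonoidHom.mem_ker]
    apply Units.ext
    simp [LinearEquiv.coe_det]
  have h2 := h1 hf
  rw [MonoidHom.mem_ker] at h2
  have h3 := congrArg Units.val h2
  simpa [LinearEquiv.coe_det] using h3

theorem mem_closure_of_det (f : W ≃ₗ[ZMod p] W) (hf : LinearMap.det (f : W →ₗ[ZMod p] W) = 1) :
    f ∈ Subgroup.closure (LinearEquiv.transvections (ZMod p) W) := by
  classical
  let b := Module.finBasis (ZMod p) W
  let ι := Fin (Module.finrank (ZMod p) W)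
  let M : Matrix.SpecialLinearGroup ι (ZMod p) :=
    ⟨LinearMap.toMatrix b b f, by rw [LinearMap.det_toMatrix]; exact hf⟩
  have key : ∀ M : Matrix.SpecialLinearGroup ι (ZMod p), ∃ e : W ≃ₗ[ZMod p] W,
      (e : W →ₗ[ZMod p] W) = Matrix.toLin b b M.1 ∧
      e ∈ Subgroup.closure (LinearEquiv.transvections (ZMod p) W) := by
    intro M
    by_cases hι : Nontrivial ι
    · refine Cfsg.Agent.Lib.Classical.Transvections.transvection_induction
        (fun M : Matrix.SpecialLinearGroup ι (ZMod p) => ∃ e : W ≃ₗ[ZMod p] W,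
          (e : W →ₗ[ZMod p] W) = Matrix.toLin b b M.1 ∧
          e ∈ Subgroup.closure (LinearEquiv.transvections (ZMod p) W)) M ?_ ?_
      · intro i j hij a
        have hfv : (b.coord j) (a • b i) = 0 := by
          simp [Module.Basis.coord_apply, Finsupp.single_apply, hij]
        refine ⟨LinearEquiv.transvection hfv, ?_, Subgroup.subset_closure ⟨_, _, hfv, rfl⟩⟩
        apply b.ext
        intro k
        rw [Matrix.toLin_self]
        simp only [LinearEquiv.coe_coe, LinearEquiv.transvection.apply,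
          Matrix.SpecialLinearGroup.transvection_coe, Matrix.add_apply, Matrix.one_apply,
          add_smul, Finset.sum_add_distrib, Module.Basis.coord_apply, Module.Basis.repr_self,
          Finsupp.single_apply, Matrix.single_apply]
        by_cases hk : j = k
        · subst hk
          simp [ite_smul]
        · simp [ite_smul, hk]
          intro h
          exact absurd h.symm hk
      · rintro A B ⟨e₁, h1, h2⟩ ⟨e₂, h3, h4⟩
        refine ⟨e₁ * e₂, ?_, Subgroup.mul_mem _ h2 h4⟩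
        have : ((A * B : Matrix.SpecialLinearGroup ι (ZMod p)) : Matrix ι ι (ZMod p)) = A.1 * B.1 := rfl
        rw [this, Matrix.toLin_mul b b b, ← h1, ← h3]
        rfl
    · rw [not_nontrivial_iff_subsingleton] at hι
      have hM : M = 1 := by
        apply Subtype.ext
        ext i j
        obtain rfl : i = j := Subsingleton.elim i j
        have h1 := Matrix.det_eq_elem_of_subsingleton M.1 i
        rw [M.2] at h1
        simp [← h1]
      refine ⟨1, ?_, Subgroup.one_mem _⟩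
      rw [hM]
      simp
  obtain ⟨e, he, he'⟩ := key M
  have : e = f := by
    apply LinearEquiv.toLinearMap_injective
    rw [he]
    exact Matrix.toLin_toMatrix b b _
  rwa [← this]

end SL

section Pieces

variable {K : Subgroup (V ≃ₗ[ZMod p] V)} {Y Z : Submodule (ZMod p) V}
  {gens : Set (V ≃ₗ[ZMod p] V)}

/-- The shape of the generators: transvections. -/
def IsGens (K : Subgroup (V ≃ₗ[ZMod p] V)) (gens : Set (V ≃ₗ[ZMod p] V)) : Prop :=
  K = Subgroup.closure gens ∧ ∀ g ∈ gens, ∃ (a : V) (b : Dual (ZMod p) V) (h : b a = 0),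
    a ≠ 0 ∧ b ≠ 0 ∧ g = LinearEquiv.transvection h

theorem IsGens.Lp (hg : IsGens K gens) {g : V ≃ₗ[ZMod p] V} (hgm : g ∈ gens) :
    ∃ (a : V) (b : Dual (ZMod p) V), a ≠ 0 ∧ b ≠ 0 ∧ Core.Lp K a b ∧ ∀ x, g x = x + b x • a := by
  obtain ⟨a, b, h, ha, hb, rfl⟩ := hg.2 g hgm
  refine ⟨a, b, ha, hb, ⟨h, ?_⟩, fun x => rfl⟩
  rw [hg.1]
  exact Subgroup.subset_closure hgm

/-- The group fixes `Z` pointwise. -/
theorem fix_Z (S : Struct K Y Z) (hg : IsGens K gens) : ∀ k ∈ K, ∀ z ∈ Z, k z = z := by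
  intro k hk
  have h1 : K ≤ fixSub Z := by
    rw [hg.1, Subgroup.closure_le]
    intro g hgm z hz
    obtain ⟨a, b, ha, hb, hL, hgx⟩ := hg.Lp hgm
    rw [hgx, (S.pair a b ha hb hL).2 z hz, zero_smul, add_zero]
  exact h1 hk

/-- The group preserves `Y`. -/
theorem inv_Y (S : Struct K Y Z) (hg : IsGens K gens) : ∀ k ∈ K, ∀ y ∈ Y, k y ∈ Y := by
  intro k hk
  have h1 : K ≤ stabSub Y := by
    rw [hg.1, Subgroup.closure_le]
    intro g hgm
    obtain ⟨a, b, ha, hb, hL, hgx⟩ := hg.Lp hgm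
    have haY := (S.pair a b ha hb hL).1
    refine ⟨fun y hy => ?_, fun y hy => ?_⟩
    · rw [hgx]
      exact Y.add_mem hy (Y.smul_mem _ haY)
    · have h2 : g⁻¹ y = y - b y • a := by
        show g.symm y = _
        rw [LinearEquiv.symm_apply_eq, hgx]
        simp [hL.1]
      rw [h2]
      exact Y.sub_mem hy (Y.smul_mem _ haY)
  exact (h1 hk).1

theorem resProp_SL [Module.Finite (ZMod p) V] (S : Struct K Y Z) (hg : IsGens K gens)
    (hSL : ∀ a ∈ Y, ∀ b : Dual (ZMod p) V, (∀ z ∈ Z, b z = 0) → b a = 0 → Core.Lp K a b) :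
    ResProp K Y := by
  have hK := inv_Y S hg
  refine ⟨resHom K Y hK, resHom_apply K Y hK, Or.inl ?_⟩
  have hr := range_eq K Y hK gens hg.1
    (Subgroup.closure (LinearEquiv.transvections (ZMod p) ↥Y)) _ rfl ?_ ?_
  · rw [hr]
    ext f
    exact ⟨det_of_mem_closure, mem_closure_of_det f⟩
  · intro g hgm
    obtain ⟨a, b, ha, hb, hL, hgx⟩ := hg.Lp hgm
    have haY := (S.pair a b ha hb hL).1
    have hfv : (b ∘ₗ Y.subtype) (⟨a, haY⟩ : ↥Y) = 0 := hL.1
    refine ⟨LinearEquiv.transvection hfv, Subgroup.subset_closure ⟨_, _, hfv, rfl⟩, fun y => ?_⟩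
    rw [hgx]
    rfl
  · rintro _ ⟨β, a, hfv, rfl⟩
    let b : Dual (ZMod p) V := β ∘ₗ Submodule.projectionOnto Y Z S.compl
    have hby : ∀ y : ↥Y, b y.1 = β y := by
      intro y
      simp only [b, LinearMap.comp_apply]
      rw [Submodule.projectionOnto_apply_left]
    have hbZ : ∀ z ∈ Z, b z = 0 := by
      intro z hz
      simp only [b, LinearMap.comp_apply]
      rw [show z = ((⟨z, hz⟩ : Z) : V) from rfl, Submodule.projectionOnto_apply_right]
      simp
    have hba : b a.1 = 0 := by rw [hby, hfv]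
    have hL := hSL a.1 a.2 b hbZ hba
    refine ⟨_, hL.2, fun y => ?_⟩
    show ((y + β y • a : ↥Y) : V) = y.1 + b y.1 • a.1
    rw [hby]
    rfl

theorem resProp_Sp [Module.Finite (ZMod p) V] (S : Struct K Y Z) (hg : IsGens K gens)
    (Φ : V →ₗ[ZMod p] Dual (ZMod p) V)
    (hL : ∀ y ∈ Y, Core.Lp K y (Φ y))
    (hform : ∀ a b, a ≠ 0 → b ≠ 0 → Core.Lp K a b → ∃ l : ZMod p, b = l • Φ a)
    (halt : ∀ y ∈ Y, Φ y y = 0) (hnd : ∀ y ∈ Y, (∀ y' ∈ Y, Φ y' y = 0) → y = 0) :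
    ResProp K Y := by
  have hK := inv_Y S hg
  let B : LinearMap.BilinForm (ZMod p) ↥Y := Y.subtype.dualMap ∘ₗ Φ ∘ₗ Y.subtype
  have hB : ∀ y y' : ↥Y, B y y' = Φ y.1 y'.1 := fun _ _ => rfl
  have hAlt : B.IsAlt := fun y => halt y.1 y.2
  have hanti : ∀ y y' : ↥Y, Φ y.1 y'.1 = - Φ y'.1 y.1 := by
    intro y y'
    have := Cfsg.Agent.Lib.Classical.Alt.alt_neg hAlt y y'
    rw [hB, hB] at this
    exact this.symm ▸ (by ring)
  have hND : B.Nondegenerate := by
    constructor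
    · intro y hy
      apply Subtype.ext
      refine hnd y.1 y.2 fun y' hy' => ?_
      have := hy ⟨y', hy'⟩
      rw [hB] at this
      rw [hanti ⟨y', hy'⟩ y, this, neg_zero]
    · intro y hy
      apply Subtype.ext
      refine hnd y.1 y.2 fun y' hy' => ?_
      exact hy ⟨y', hy'⟩
  refine ⟨resHom K Y hK, resHom_apply K Y hK, Or.inr ⟨B, hAlt, hND, ?_⟩⟩
  have hr := range_eq K Y hK gens hg.1 (Cfsg.Agent.Lib.Classical.Alt.isomGroup B)
    (Cfsg.Agent.Lib.Classical.Alt.tvSet B)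
    (Cfsg.Agent.Lib.Classical.Alt.tGroup_eq_isomGroup hND hAlt).symm ?_ ?_
  · rw [hr]
    rfl
  · intro g hgm
    obtain ⟨a, b, ha, hb, hLp, hgx⟩ := hg.Lp hgm
    have haY := (S.pair a b ha hb hLp).1
    obtain ⟨l, rfl⟩ := hform a b ha hb hLp
    let f := Cfsg.Agent.Lib.Classical.Alt.tv hAlt (⟨a, haY⟩ : ↥Y) (-l)
    refine ⟨f, Cfsg.Agent.Lib.Classical.Alt.tGroup_le_isomGroup hAlt
      (Cfsg.Agent.Lib.Classical.Alt.tv_mem_tGroup hAlt _ _), fun y => ?_⟩
    rw [hgx]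
    simp only [f, Cfsg.Agent.Lib.Classical.Alt.tv_apply, hB]
    simp only [Submodule.coe_add, Submodule.coe_smul, LinearMap.smul_apply, smul_eq_mul]
    rw [hanti y ⟨a, haY⟩]
    simp
  · rintro f ⟨w, c, hf⟩
    have hL1 : Core.Lp K w.1 ((-c) • Φ w.1) := (hL w.1 w.2).smul_right _
    refine ⟨_, hL1.2, fun y => ?_⟩
    rw [hf]
    show ((y + (c * B y w) • w : ↥Y) : V) = y.1 + ((-c) • Φ w.1) y.1 • w.1
    simp only [hB, Submodule.coe_add, Submodule.coe_smul, LinearMap.smul_apply, smul_eq_mul]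
    rw [hanti y w]
    simp

end Pieces

end Cfsg.Agent.Lib.McL.Restrict
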