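/-
McLaughlin's theorem: components of the non-commuting graph and the final statement.
-/
import Mathlib
import Cfsg.Agent.Lib.McL.Restrict
import Cfsg.Agent.Lib.McL.HighRank
import Cfsg.Agent.Lib.McL.Form3

set_option autoImplicit false

namespace Cfsg.Agent.Lib.McL.Main

open Module Cfsg.Agent.Lib.McL.Core Cfsg.Agent.Lib.McL.Flag Cfsg.Agent.Lib.McL.Assemble
  Cfsg.Agent.Lib.McL.Restrict Cfsg.Agent.Lib.McL.HighRank Cfsg.Agent.Lib.McL.Form3

variable {p : ℕ} [Fact p.Prime] {V : Type*} [AddCommGroup V] [Module (ZMod p) V]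

/-- The core theorem for a connected group. -/
theorem core_conn [Module.Finite (ZMod p) V] (hp : Odd p) {K : Subgroup (V ≃ₗ[ZMod p] V)}
    (hN : NoNormalP K) (hconn : Conn K) {gens : Set (V ≃ₗ[ZMod p] V)} (hg : IsGens K gens)
    {a₀ : V} {f₀ : Dual (ZMod p) V} (ha₀ : a₀ ≠ 0) (hf₀ : f₀ ≠ 0) (h₀ : Lp K a₀ f₀) :
    ∃ Y Z : Submodule (ZMod p) V, Struct K Y Z ∧ ResProp K Y := by
  have hF := flagFree_of hp hN
  by_cases hle : ∀ a, a ≠ 0 → Module.finrank (ZMod p) (BB K a) ≤ 1
  · obtain ⟨Y, Z, S, Φ, _, h2, h3, h4, h5⟩ := lowRank_struct hp hF hconn hle ha₀ hf₀ h₀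
    exact ⟨Y, Z, S, resProp_Sp S hg Φ h2 h3 h4 h5⟩
  · push Not at hle
    obtain ⟨a, ha, h2⟩ := hle
    obtain ⟨Y, Z, S, hSL⟩ := highRank_struct (d := Module.finrank (ZMod p) (BB K a)) hF hconn h2
      ⟨ha, rfl⟩
    exact ⟨Y, Z, S, resProp_SL S hg hSL⟩

/-- An element of order `p` fixing a hyperplane is a transvection. -/
theorem exists_tv_of_order [Module.Finite (ZMod p) V] {t : V ≃ₗ[ZMod p] V}
    (h1 : orderOf t = p)
    (h2 : Module.finrank (ZMod p) ↥(LinearMap.ker ((t : V →ₗ[ZMod p] V) - LinearMap.id)) + 1 =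
        Module.finrank (ZMod p) V) :
    ∃ (a : V) (b : Dual (ZMod p) V) (h : b a = 0), a ≠ 0 ∧ b ≠ 0 ∧
      t = LinearEquiv.transvection h := by
  have hpp : p.Prime := Fact.out
  have h3 : t ∈ LinearEquiv.dilatransvections (ZMod p) V := by
    rw [LinearEquiv.mem_dilatransvections_iff_finrank]
    have := LinearMap.finrank_range_add_finrank_ker ((t : V →ₗ[ZMod p] V) - LinearMap.id)
    omega
  obtain ⟨f, v, he⟩ := h3
  have hx : ∀ x, t x = x + f x • v := fun x => LinearMap.congr_fun he x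
  have ht1 : t ≠ 1 := by
    intro h
    rw [h, orderOf_one] at h1
    exact hpp.one_lt.ne h1
  have hv : v ≠ 0 := by
    rintro rfl
    apply ht1
    apply LinearEquiv.ext
    intro x
    rw [hx]
    simp
  have hf : f ≠ 0 := by
    rintro rfl
    apply ht1
    apply LinearEquiv.ext
    intro x
    rw [hx]
    simp
  have hpow : ∀ n : ℕ, (t ^ n) v = (1 + f v) ^ n • v := by
    intro n
    induction n with
    | zero => simp
    | succ n ih =>
      rw [pow_succ', LinearEquiv.mul_apply, ih, map_smul, hx, pow_succ', mul_smul, add_smul,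
        one_smul, smul_add]
      congr 1
      exact smul_comm _ _ _
  have hc : f v = 0 := by
    have h4 := hpow p
    have h5 : t ^ (orderOf t) = 1 := pow_orderOf_eq_one t
    rw [h1] at h5
    rw [h5, ZMod.pow_card] at h4
    have h6 : f v • v = 0 := by
      have h7 : (1 : V ≃ₗ[ZMod p] V) v = v := rfl
      rw [h7, add_smul, one_smul] at h4
      simpa using h4.symm
    exact (smul_eq_zero.1 h6).resolve_right hv
  refine ⟨v, f, hc, hv, hf, ?_⟩
  apply LinearEquiv.ext
  intro x
  rw [hx]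
  rfl

theorem tv_comm {a a' : V} {b b' : Dual (ZMod p) V} (h : b a = 0) (h' : b' a' = 0)
    (h1 : b a' = 0) (h2 : b' a = 0) :
    Commute (LinearEquiv.transvection h) (LinearEquiv.transvection h') := by
  show _ * _ = _ * _
  apply LinearEquiv.ext
  intro x
  simp only [LinearEquiv.mul_apply, tv_apply, map_add, map_smul, h1, h2, smul_eq_mul, mul_zero,
    add_zero, zero_smul]
  abel

theorem comm_closure {G : Type*} [Group G] {A B : Set G} (h : ∀ a ∈ A, ∀ b ∈ B, Commute a b) :
    ∀ a ∈ Subgroup.closure A, ∀ b ∈ Subgroup.closure B, Commute a b := by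
  have h1 : ∀ a ∈ Subgroup.closure A, ∀ b ∈ B, Commute a b := by
    intro a ha b hb
    induction ha using Subgroup.closure_induction with
    | mem x hx => exact h x hx b hb
    | one => exact Commute.one_left b
    | mul x y _ _ hx hy => exact hx.mul_left hy
    | inv x _ hx => exact hx.inv_left
  intro a ha b hb
  induction hb using Subgroup.closure_induction with
  | mem x hx => exact h1 a ha x hx
  | one => exact Commute.one_right a
  | mul x y _ _ hx hy => exact hx.mul_right hy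
  | inv x _ hx => exact hx.inv_right

section Comp

variable (H : Subgroup (V ≃ₗ[ZMod p] V))

/-- The pairs of `H`. -/
def XX : Type _ :=
  {x : V × Dual (ZMod p) V // x.1 ≠ 0 ∧ x.2 ≠ 0 ∧ Lp H x.1 x.2}

variable {H}

/-- Adjacency. -/
def Adj (x y : XX H) : Prop := x.1.2 y.1.1 ≠ 0 ∨ y.1.2 x.1.1 ≠ 0

theorem Adj.symm {x y : XX H} (h : Adj x y) : Adj y x := Or.symm h

/-- The transvection of a pair. -/
def tau (x : XX H) : V ≃ₗ[ZMod p] V := LinearEquiv.transvection x.2.2.2.1

theorem tau_mem (x : XX H) : tau x ∈ H := x.2.2.2.2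

theorem tau_comm {x y : XX H} (h : ¬ Adj x y) : Commute (tau x) (tau y) := by
  unfold Adj at h
  push Not at h
  exact tv_comm _ _ h.1 h.2

/-- The generators attached to a class. -/
def gensOf (i : Quot (Adj (H := H))) : Set (V ≃ₗ[ZMod p] V) :=
  tau '' {x : XX H | Quot.mk Adj x = i}

/-- The subgroup attached to a class. -/
def KK (i : Quot (Adj (H := H))) : Subgroup (V ≃ₗ[ZMod p] V) := Subgroup.closure (gensOf i)

theorem tau_mem_KK (x : XX H) : tau x ∈ KK (Quot.mk Adj x) :=
  Subgroup.subset_closure ⟨x, rfl, rfl⟩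

theorem isGens_KK (i : Quot (Adj (H := H))) : IsGens (KK i) (gensOf i) := by
  refine ⟨rfl, ?_⟩
  rintro _ ⟨x, _, rfl⟩
  exact ⟨x.1.1, x.1.2, x.2.2.2.1, x.2.1, x.2.2.1, rfl⟩

theorem KK_le (i : Quot (Adj (H := H))) : KK i ≤ H := by
  rw [KK, Subgroup.closure_le]
  rintro _ ⟨x, _, rfl⟩
  exact tau_mem x

theorem not_adj_of_ne {x y : XX H} (h : (Quot.mk Adj x : Quot (Adj (H := H))) ≠ Quot.mk Adj y) :
    ¬ Adj x y := fun h' => h (Quot.sound h')

theorem KK_comm {i j : Quot (Adj (H := H))} (hij : i ≠ j) :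
    ∀ a ∈ KK i, ∀ b ∈ KK j, Commute a b := by
  apply comm_closure
  rintro _ ⟨x, hx, rfl⟩ _ ⟨y, hy, rfl⟩
  apply tau_comm
  apply not_adj_of_ne
  rw [show (Quot.mk Adj x : Quot (Adj (H := H))) = i from hx,
    show (Quot.mk Adj y : Quot (Adj (H := H))) = j from hy]
  exact hij

/-- `H` is generated by its pairs. -/
def GenBy (H : Subgroup (V ≃ₗ[ZMod p] V)) : Prop :=
  H = Subgroup.closure (Set.range (tau (H := H)))

theorem normal_of (hG : GenBy H) {i : Quot (Adj (H := H))} {P : Subgroup (V ≃ₗ[ZMod p] V)}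
    (hPK : P ≤ KK i) (hP : ∀ g ∈ KK i, ∀ x ∈ P, g * x * g⁻¹ ∈ P) :
    ∀ g ∈ H, ∀ x ∈ P, g * x * g⁻¹ ∈ P := by
  have key : ∀ g ∈ H, ∀ x ∈ P, g * x * g⁻¹ ∈ P ∧ g⁻¹ * x * g ∈ P := by
    intro g hg
    rw [hG] at hg
    induction hg using Subgroup.closure_induction with
    | mem g hg =>
      obtain ⟨y, rfl⟩ := hg
      intro x hx
      by_cases hy : (Quot.mk Adj y : Quot (Adj (H := H))) = i
      · have h1 : tau y ∈ KK i := by rw [← hy]; exact tau_mem_KK y
        refine ⟨hP _ h1 x hx, ?_⟩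
        have := hP _ ((KK i).inv_mem h1) x hx
        rwa [inv_inv] at this
      · have h1 := KK_comm hy (tau y) (tau_mem_KK y) x (hPK hx)
        have h2 : tau y * x * (tau y)⁻¹ = x := by
          rw [h1.eq]
          group
        have h3 : (tau y)⁻¹ * x * tau y = x := by
          rw [mul_assoc, ← h1.eq]
          group
        rw [h2, h3]
        exact ⟨hx, hx⟩
    | one =>
      intro x hx
      simpa using hx
    | mul a b _ _ ha hb =>
      intro x hx
      constructor
      · have := (ha _ (hb x hx).1).1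
        convert this using 1
        group
      · have := (hb _ (ha x hx).2).2
        convert this using 1
        group
    | inv a _ ha =>
      intro x hx
      rw [inv_inv]
      exact ⟨(ha x hx).2, (ha x hx).1⟩
  exact fun g hg x hx => (key g hg x hx).1

theorem noNormalP_KK (hG : GenBy H) (hN : NoNormalP H) (i : Quot (Adj (H := H))) :
    NoNormalP (KK i) := by
  intro P hPK hP hexp
  exact hN P (hPK.trans (KK_le i)) (normal_of hG hPK hP) hexp

/-- A pair of `H` which is central in `H` does not exist. -/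
theorem not_central (hp : Odd p) (hG : GenBy H) (hN : NoNormalP H) (x : XX H)
    (hc : ∀ y : XX H, Commute (tau x) (tau y)) : False := by
  have hcen : ∀ g ∈ H, Commute g (tau x) := by
    intro g hg
    rw [hG] at hg
    induction hg using Subgroup.closure_induction with
    | mem g hg =>
      obtain ⟨y, rfl⟩ := hg
      exact (hc y).symm
    | one => exact Commute.one_left _
    | mul a b _ _ ha hb => exact ha.mul_left hb
    | inv a _ ha => exact ha.inv_left
  have hpow : (tau x) ^ p = 1 := by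
    have h1 : ∀ v, tau x v - v ∈ Submodule.span (ZMod p) {x.1.1} := by
      intro v
      show (v + x.1.2 v • x.1.1) - v ∈ _
      rw [add_sub_cancel_left]
      exact Submodule.smul_mem _ _ (Submodule.mem_span_singleton_self _)
    refine pow_eq_one_of_flag hp h1 (fun v _ => h1 v) ?_
    intro v hv
    obtain ⟨c, rfl⟩ := Submodule.mem_span_singleton.1 hv
    show c • x.1.1 + x.1.2 (c • x.1.1) • x.1.1 = c • x.1.1
    rw [map_smul, x.2.2.2.1, smul_zero, zero_smul, add_zero]
  have hP := hN (Subgroup.zpowers (tau x))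
    (by
      rw [Subgroup.zpowers_le]
      exact tau_mem x)
    (by
      rintro g hg _ ⟨k, rfl⟩
      have : g * (tau x) ^ k * g⁻¹ = (tau x) ^ k := by
        rw [((hcen g hg).zpow_right k).eq]
        group
      rw [this]
      exact ⟨k, rfl⟩)
    (by
      rintro _ ⟨k, rfl⟩
      show ((tau x) ^ k) ^ p = 1
      rw [← zpow_natCast, ← zpow_mul, mul_comm, zpow_mul, zpow_natCast, hpow, one_zpow])
  have h1 : tau x = 1 := by
    have : tau x ∈ Subgroup.zpowers (tau x) := Subgroup.mem_zpowers _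
    rw [hP] at this
    exact this
  rcases eq_zero_or_of_tv_eq_one x.2.2.2.1 h1 with h | h
  · exact x.2.1 h
  · exact x.2.2.1 h

/-- A pair of `KK i` belongs to the class `i`. -/
theorem exists_of_Lp_KK (hp : Odd p) (hG : GenBy H) (hN : NoNormalP H) {i : Quot (Adj (H := H))}
    {a : V} {b : Dual (ZMod p) V} (ha : a ≠ 0) (hb : b ≠ 0) (hL : Lp (KK i) a b) :
    ∃ x : XX H, x.1 = (a, b) ∧ Quot.mk Adj x = i := by
  let x : XX H := ⟨(a, b), ha, hb, hL.1, KK_le i hL.2⟩
  refine ⟨x, rfl, ?_⟩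
  by_contra hne
  have hxK : tau x ∈ KK i := hL.2
  refine not_central hp hG hN x fun y => ?_
  by_cases hy : (Quot.mk Adj y : Quot (Adj (H := H))) = i
  · apply tau_comm
    apply not_adj_of_ne
    rw [hy]
    exact hne
  · exact (KK_comm hy (tau y) (tau_mem_KK y) (tau x) hxK).symm

theorem conn_KK (hp : Odd p) (hG : GenBy H) (hN : NoNormalP H) (i : Quot (Adj (H := H))) :
    Conn (KK i) := by
  rintro P hP ⟨a₀, b₀, hab⟩ hcl a b ha hb hL
  let φ : XX H → Prop := fun x => P x.1.1 x.1.2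
  have hmem : ∀ x : XX H, φ x → (Quot.mk Adj x : Quot (Adj (H := H))) = i := by
    intro x hx
    obtain ⟨h1, h2, h3⟩ := hP _ _ hx
    obtain ⟨x', hx', hi⟩ := exists_of_Lp_KK hp hG hN h1 h2 h3
    have : x' = x := Subtype.ext hx'
    rwa [this] at hi
  have hstep : ∀ x y : XX H, Adj x y → φ x → φ y := by
    intro x y hxy hx
    by_contra hy
    have hxi := hmem x hx
    have hyi : (Quot.mk Adj y : Quot (Adj (H := H))) = i := (Quot.sound hxy).symm.trans hxi
    have hLy : Lp (KK i) y.1.1 y.1.2 := by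
      refine ⟨y.2.2.2.1, ?_⟩
      rw [← hyi]
      exact tau_mem_KK y
    obtain ⟨h1, h2⟩ := hcl _ _ _ _ hx y.2.1 y.2.2.1 hLy hy
    rcases hxy with h | h
    · exact h h1
    · exact h h2
  have hlift : ∀ x y : XX H, Adj x y → φ x = φ y := fun x y hxy =>
    propext ⟨hstep x y hxy, hstep y x hxy.symm⟩
  let g : Quot (Adj (H := H)) → Prop := Quot.lift φ hlift
  obtain ⟨h1, h2, h3⟩ := hP _ _ hab
  obtain ⟨x₀, hx₀, hi₀⟩ := exists_of_Lp_KK hp hG hN h1 h2 h3
  obtain ⟨x, hx, hi⟩ := exists_of_Lp_KK hp hG hN ha hb hL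
  have h4 : g (Quot.mk Adj x) = g (Quot.mk Adj x₀) := by rw [hi, hi₀]
  have h5 : φ x = φ x₀ := h4
  have h6 : φ x₀ := by
    show P x₀.1.1 x₀.1.2
    rw [hx₀]
    exact hab
  have h7 : φ x := h5 ▸ h6
  show P a b
  have h8 : P x.1.1 x.1.2 := h7
  rwa [hx] at h8

end Comp

/-- The theorem with the conclusion in the form of `assemble`. -/
theorem main [Finite V] (hp : Odd p) (H : Subgroup (V ≃ₗ[ZMod p] V)) (T : Set (V ≃ₗ[ZMod p] V))
    (hHT : H = Subgroup.closure T)
    (hT : ∀ t ∈ T, orderOf t = p ∧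
      Module.finrank (ZMod p) ↥(LinearMap.ker ((t : V →ₗ[ZMod p] V) - LinearMap.id)) + 1 =
        Module.finrank (ZMod p) V)
    (hN : NoNormalP H) :
    ∃ (n : ℕ) (W : Fin (n + 1) → Submodule (ZMod p) V) (K' : Fin n → Subgroup (V ≃ₗ[ZMod p] V)),
      1 ≤ n ∧ DirectSum.IsInternal W ∧
      (∀ h ∈ H, ∀ i, (W i).map (h : V →ₗ[ZMod p] V) = W i) ∧
      (∀ j, K' j ≤ H ∧ ((K' j).subgroupOf H).Normal) ∧ ⨆ j, K' j = H ∧
      (∀ j, K' j ⊓ (⨆ j' ∈ {j' : Fin n | j' ≠ j}, K' j') = ⊥) ∧
      (∀ j j', j ≠ j' → ∀ a ∈ K' j, ∀ b ∈ K' j', a * b = b * a) ∧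
      (∀ j, ∀ h ∈ K' j, ∀ i : Fin (n + 1), i ≠ j.succ → ∀ v ∈ W i, h v = v) ∧
      (∀ j, ResProp (K' j) (W j.succ)) := by
  classical
  haveI hfin : Module.Finite (ZMod p) V := Module.Finite.of_finite
  haveI hfinD : Finite (Dual (ZMod p) V) :=
    Finite.of_injective (fun f : V →ₗ[ZMod p] ZMod p => (f : V → ZMod p)) DFunLike.coe_injective
  haveI hfinX : Finite (XX H) := by
    unfold XX
    infer_instance
  -- generators
  have hTτ : ∀ t ∈ T, ∃ x : XX H, t = tau x := by
    intro t ht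
    obtain ⟨a, b, h, ha, hb, rfl⟩ := exists_tv_of_order (hT t ht).1 (hT t ht).2
    refine ⟨⟨(a, b), ha, hb, h, ?_⟩, rfl⟩
    rw [hHT]
    exact Subgroup.subset_closure ht
  have hG : GenBy H := by
    apply le_antisymm
    · conv_lhs => rw [hHT]
      rw [Subgroup.closure_le]
      intro t ht
      obtain ⟨x, rfl⟩ := hTτ t ht
      exact Subgroup.subset_closure ⟨x, rfl⟩
    · rw [Subgroup.closure_le]
      rintro _ ⟨x, rfl⟩
      exact tau_mem x
  by_cases hne : Nonempty (Quot (Adj (H := H)))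
  · haveI : Fintype (Quot (Adj (H := H))) := Fintype.ofFinite _
    have hcore : ∀ i : Quot (Adj (H := H)), ∃ Y Z : Submodule (ZMod p) V,
        Struct (KK i) Y Z ∧ ResProp (KK i) Y := by
      intro i
      obtain ⟨x, rfl⟩ := Quot.exists_rep i
      exact core_conn hp (noNormalP_KK hG hN _) (conn_KK hp hG hN _) (isGens_KK _) x.2.1 x.2.2.1
        ⟨x.2.2.2.1, tau_mem_KK x⟩
    choose Y Z hS hR using hcore
    refine assemble Y Z KK (fun j => (hS j).compl) KK_le ?_ ?_
      (fun j => fix_Z (hS j) (isGens_KK j)) (fun j => inv_Y (hS j) (isGens_KK j)) ?_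
      (fun j j' hjj' a ha b hb => (KK_comm hjj' a ha b hb).eq) hR
    · intro j h hh k hk
      exact normal_of hG le_rfl (fun g hg x hx =>
        (KK j).mul_mem ((KK j).mul_mem hg hx) ((KK j).inv_mem hg)) h hh k hk
    · apply le_antisymm
      · exact iSup_le KK_le
      · conv_lhs => rw [hG]
        rw [Subgroup.closure_le]
        rintro _ ⟨x, rfl⟩
        exact Subgroup.mem_iSup_of_mem _ (tau_mem_KK x)
    · intro j j' hjj' y hy
      apply (hS j').ax
      intro a b ha hb hL
      by_cases hy0 : y = 0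
      · rw [hy0, map_zero]
      obtain ⟨b₁, hb₁, hL₁⟩ := (hS j).cen y hy hy0
      obtain ⟨x, hx, hi⟩ := exists_of_Lp_KK hp hG hN ha hb hL
      obtain ⟨x', hx', hi'⟩ := exists_of_Lp_KK hp hG hN hy0 hb₁ hL₁
      have h1 := not_adj_of_ne (x := x') (y := x) (by rw [hi, hi']; exact hjj')
      unfold Adj at h1
      push Not at h1
      have h2 := h1.2
      rw [hx, hx'] at h2
      exact h2
  · -- no pairs
    have hX : IsEmpty (XX H) := by
      constructor
      intro x
      exact hne ⟨Quot.mk _ x⟩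
    have hH : H = ⊥ := by
      rw [hG, Subgroup.closure_eq_bot_iff]
      rintro _ ⟨x, rfl⟩
      exact hX.elim x
    have hS : Struct (⊥ : Subgroup (V ≃ₗ[ZMod p] V)) ⊥ ⊤ := by
      refine ⟨isCompl_bot_top, ?_, ?_, fun z _ => trivial⟩
      · intro a b ha hb hL
        exfalso
        have h1 : LinearEquiv.transvection hL.1 = 1 := hL.2
        rcases eq_zero_or_of_tv_eq_one hL.1 h1 with h | h
        · exact ha h
        · exact hb h
      · intro y hy hy0
        exact absurd hy hy0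
    have hg : IsGens (⊥ : Subgroup (V ≃ₗ[ZMod p] V)) ∅ :=
      ⟨by simp, fun g hg => absurd hg (Set.notMem_empty g)⟩
    have hres : ResProp (⊥ : Subgroup (V ≃ₗ[ZMod p] V)) ⊥ := resProp_SL hS hg (by
      intro a ha b _ _
      have : a = 0 := ha
      rw [this]
      exact Lp_zero_left b)
    refine assemble (J := Unit) (fun _ => ⊥) (fun _ => ⊤) (fun _ => ⊥)
      (fun _ => isCompl_bot_top) (fun _ => bot_le) ?_ ?_ ?_ ?_ ?_ ?_ (fun _ => hres)
    · intro _ h hh k hk
      rw [Subgroup.mem_bot] at hk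
      subst hk
      simp
    · rw [hH]
      simp
    · intro _ k hk z _
      rw [Subgroup.mem_bot] at hk
      subst hk
      rfl
    · intro _ k hk y hy
      rw [Subgroup.mem_bot] at hk
      subst hk
      exact hy
    · intro j j' h
      exact absurd (Subsingleton.elim j j') h
    · intro j j' h
      exact absurd (Subsingleton.elim j j') h

end Cfsg.Agent.Lib.McL.Main
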